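import Cfsg.Agent.H49.Hall
import Cfsg.Agent.H8.ClsSz
import Cfsg.Agent.H8.PETools

/-! Groups with class sizes `{1, m, m n}`, `m, n` coprime: basics; `m` is a prime power. -/

set_option autoImplicit false
set_option linter.unusedSectionVars false

namespace Cfsg.Agent.H6
open Subgroup Cfsg.Agent.H49 Cfsg.Agent.H83 Cfsg.Agent.H8

universe u

variable {G : Type u} [Group G] [Finite G] {m n p q : ℕ} {g k y y' u t : G}

theorem pe_iff (hp : p.Prime) : PE p u ↔ IsPiElt {p} u :=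
  ⟨fun h => (isPiNat_singleton hp (orderOf_pos u).ne').2 (h.orderOf_eq hp),
    fun h => ((isPiNat_singleton hp (orderOf_pos u).ne').1 h).elim fun _ e => .of_orderOf e⟩

theorem pe_compl (hp : p.Prime) (hq : q.Prime) (hpq : p ≠ q) (h : PE q t) : IsPiElt {p}ᶜ t :=
  (isPiNat_compl_singleton_iff_coprime hp).2 (h.coprime ((Nat.coprime_primes hq hp).2 hpq.symm))

structure T3 (G : Type u) [Group G] (m n : ℕ) : Prop where
  hm : 1 < m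
  hn : 1 < n
  cop : m.Coprime n
  cs_eq : ∀ g : G, g ∉ center G → cs(g) = m ∨ cs(g) = m * n
  ex_s : ∃ g : G, cs(g) = m
  ex_l : ∃ g : G, cs(g) = m * n

namespace T3
variable (h : T3 G m n)
include h

omit [Finite G] in
theorem cs_eq' (hg : g ∉ center G) : ∃ a, a ∣ n ∧ cs(g) = m * a :=
  (h.cs_eq g hg).elim (fun e => ⟨1, one_dvd _, by rw [e, mul_one]⟩) fun e => ⟨n, dvd_rfl, e⟩

omit [Finite G] in
theorem nc_s (hg : cs(g) = m) : g ∉ center G := fun e => by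
  have := h.hm; rw [← hg, cs_eq_one_iff.2 e] at this; omega

omit [Finite G] in
theorem nc_l (hg : cs(g) = m * n) : g ∉ center G := fun e => by
  have := Nat.mul_lt_mul'' h.hm h.hn; rw [← hg, cs_eq_one_iff.2 e] at this; omega

omit [Finite G] in
theorem dvd_cs (hg : g ∉ center G) : m ∣ cs(g) :=
  (h.cs_eq' hg).elim fun _ e => e.2 ▸ dvd_mul_right _ _

omit [Finite G] in
theorem rel_dvd (hg : g ∉ center G) (hk : k ∉ center G) (hle : 𝒞[g] ≤ 𝒞[k]) :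
    𝒞[g].relIndex 𝒞[k] ∣ n := by
  have h1 := relIndex_mul_index hle
  obtain ⟨a, h2, h3⟩ := h.cs_eq' hg
  obtain ⟨b, -, h4⟩ := h.cs_eq' hk
  rw [h3, h4, mul_left_comm] at h1
  exact (Dvd.intro _ (Nat.eq_of_mul_eq_mul_left (zero_lt_one.trans h.hm) h1)).trans h2

theorem eq_of_large (hg : cs(g) = m * n) (hle : 𝒞[k] ≤ 𝒞[g]) : 𝒞[k] = 𝒞[g] := by
  have h1 := index_dvd_of_le hle
  have hk : k ∉ center G := fun e => by
    rw [cs_eq_one_iff.2 e, Nat.dvd_one, cs_eq_one_iff] at h1; exact h.nc_l hg h1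
  refine eq_of_le_of_index_eq hle (Nat.dvd_antisymm ?_ h1)
  obtain ⟨a, h2, h3⟩ := h.cs_eq' hk
  rw [hg, h3]; exact Nat.mul_dvd_mul_left _ h2

theorem eq_of_small (hg : cs(g) = m) (hk : k ∉ center G) (hle : 𝒞[g] ≤ 𝒞[k]) : 𝒞[g] = 𝒞[k] :=
  eq_of_le_of_index_eq hle (Nat.dvd_antisymm (hg ▸ h.dvd_cs hk) (index_dvd_of_le hle))

omit [Finite G] in
theorem small_of_not_dvd (hq : q ∣ n) (hg : g ∉ center G) (h1 : ¬ q ∣ cs(g)) : cs(g) = m :=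
  (h.cs_eq g hg).resolve_right fun e => h1 (e ▸ hq.mul_left m)

omit [Finite G] in
theorem not_dvd (hp : p.Prime) (hpm : p ∣ m) : ¬ p ∣ n := fun e =>
  hp.one_lt.ne' (Nat.eq_one_of_dvd_coprimes h.cop hpm e)

/-- large elements are central in their centralizers' coprime parts -/
theorem cent_le_of_large (hg : cs(g) = m * n) (hc : Commute g t)
    (hcop : (orderOf g).Coprime (orderOf t)) : 𝒞[g] ≤ 𝒞[t] := by
  have h1 := cent_mul_of_coprime hc hcop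
  rw [← h.eq_of_large hg (h1 ▸ inf_le_left : 𝒞[g * t] ≤ 𝒞[g]), h1]
  exact inf_le_right

omit [Finite G] in
theorem index_center (hg : g ∉ center G) :
    ∃ a, a ∣ n ∧ (center G).index = (center G).relIndex 𝒞[g] * m * a := by
  obtain ⟨a, h1, h2⟩ := h.cs_eq' hg
  exact ⟨a, h1, by rw [mul_assoc, ← h2, relIndex_mul_index (center_le_centralizer _)]⟩

variable (hp : p.Prime) (hpm : p ∣ m)
include hp hpm

omit [Finite G] in
theorem syl_transfer {D : Subgroup G} (hg : g ∉ center G) (hk : k ∉ center G)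
    (hD : IsSylowOf p D 𝒞[g]) (hle : D ≤ 𝒞[k]) : IsSylowOf p D 𝒞[k] := by
  refine hall_mk hle hD.pi ((isPiNat_compl_singleton hp).2 fun e => ?_)
  have h1 := (relIndex_mul_index hle).trans (relIndex_mul_index hD.le).symm
  obtain ⟨a, h2, h3⟩ := h.cs_eq' hg
  obtain ⟨b, -, h4⟩ := h.cs_eq' hk
  rw [h3, h4, mul_left_comm, mul_left_comm _ m] at h1
  replace h1 := Nat.eq_of_mul_eq_mul_left (zero_lt_one.trans h.hm) h1
  exact (hp.dvd_mul.1 (h1 ▸ e.mul_right b)).elim ((isPiNat_compl_singleton hp).1 hD.index)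
    fun e => h.not_dvd hp hpm (e.trans h2)

theorem dvd_rel (hg : g ∉ center G) : p ∣ (center G).relIndex 𝒞[g] := by
  obtain ⟨y, -, h1, h2⟩ := exists_PE_of_dvd_relIndex (Y := center G) (X := ⊤) hp (by
    rw [relIndex_top_right]
    exact (hpm.trans (h.dvd_cs hg)).trans (index_dvd_of_le (center_le_centralizer _)))
  have h3 := dvd_relIndex_center hp (self_mem_cent1 y) h1 h2
  obtain ⟨a, h4, h5⟩ := h.index_center hg
  obtain ⟨b, -, h6⟩ := h.index_center h2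
  rw [h6, mul_right_comm, mul_right_comm _ m] at h5
  replace h5 := Nat.eq_of_mul_eq_mul_right (zero_lt_one.trans h.hm) h5
  exact (hp.dvd_mul.1 (h5 ▸ h3.mul_right b)).resolve_right fun e => h.not_dvd hp hpm (e.trans h4)

theorem exists_pe (hg : g ∉ center G) : ∃ u ∈ 𝒞[g], PE p u ∧ u ∉ center G :=
  exists_PE_of_dvd_relIndex hp (h.dvd_rel hp hpm hg)

variable (hy : PE p y) (hyZ : y ∉ center G)
include hy hyZ

theorem reg (t : 𝒞[y]) (ht : (orderOf t).Coprime p) : ¬ p ∣ cs(t) := fun e => by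
  have h1 : Commute y t := (mem_cent1.1 t.2).symm
  have h2 : (orderOf y).Coprime (orderOf (t : G)) := hy.coprime (by rw [orderOf_coe]; exact ht.symm)
  have h3 := h.rel_dvd (mul_not_mem_center h1 h2 hyZ) hyZ
    (cent_mul_of_coprime h1 h2 ▸ inf_le_left)
  rw [cent_mul_of_coprime h1 h2, inf_relIndex_left, ← cs_subgroup] at h3
  exact h.not_dvd hp hpm (e.trans h3)

theorem sylD : IsSylowOf p (piCoreOf {p} 𝒞[y]) 𝒞[y] := by
  have := Fact.mk hp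
  obtain ⟨Q⟩ : Nonempty (Sylow p 𝒞[y]) := inferInstance
  have := sylow_normal_of_sup_cent Q (sylow_sup_cent_eq_top (h.reg hp hpm hy hyZ) Q)
  exact (sylowOf_map hp Q).hall_piCoreOf (normalIn_map_subtype Q.1).norm

theorem hallK : IsPiHallOf {p}ᶜ (piCoreOf {p}ᶜ 𝒞[y]) 𝒞[y] :=
  have := Fact.mk hp
  (hasNormalPComplement_iff hp).1 (hasNormalPComplement_of_cs_not_dvd (h.reg hp hpm hy hyZ))

theorem memD : u ∈ piCoreOf {p} 𝒞[y] ↔ u ∈ 𝒞[y] ∧ PE p u :=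
  ⟨fun e => ⟨piCoreOf_le _ _ e, (pe_iff hp).2 ((piCoreOf_pi _ _).elt e)⟩, fun e =>
    (h.sylD hp hpm hy hyZ).mem_of_normal (le_norm_piCoreOf _ _) e.1 ((pe_iff hp).1 e.2)⟩

theorem memK : t ∈ piCoreOf {p}ᶜ 𝒞[y] ↔ t ∈ 𝒞[y] ∧ IsPiElt {p}ᶜ t :=
  ⟨fun e => ⟨piCoreOf_le _ _ e, (piCoreOf_pi _ _).elt e⟩, fun e =>
    (h.hallK hp hpm hy hyZ).mem_of_normal (le_norm_piCoreOf _ _) e.1 e.2⟩

theorem D_le (ht : t ∈ 𝒞[y]) (ht' : IsPiElt {p}ᶜ t) : piCoreOf {p} 𝒞[y] ≤ 𝒞[t] :=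
  (piCoreOf_cent_compl _ _).trans (cent_le_cent1 ((h.memK hp hpm hy hyZ).2 ⟨ht, ht'⟩))

theorem K_eq (hu : u ∈ 𝒞[y]) (hu' : PE p u) (huZ : u ∉ center G) :
    piCoreOf {p}ᶜ 𝒞[u] = piCoreOf {p}ᶜ 𝒞[y] := by
  ext t
  rw [h.memK hp hpm hy hyZ, h.memK hp hpm hu' huZ]
  exact and_congr_left fun ht => ⟨fun e => mem_cent1_comm.1 (h.D_le hp hpm hu' huZ e ht
    ((h.memD hp hpm hu' huZ).2 ⟨mem_cent1_comm.1 hu, hy⟩)), fun e => mem_cent1_comm.1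
      (h.D_le hp hpm hy hyZ e ht ((h.memD hp hpm hy hyZ).2 ⟨hu, hu'⟩))⟩

theorem K_le_of_large (hl : cs(y) = m * n) : piCoreOf {p}ᶜ 𝒞[y] ≤ 𝒞(𝒞[y]) := fun _ ht =>
  le_cent1_iff.1 (h.cent_le_of_large hl (mem_cent1.1 (piCoreOf_le _ _ ht)).symm
    (IsPiNat.coprime ((pe_iff hp).1 hy) ((piCoreOf_pi _ _).elt ht)))

variable (hq : q.Prime) (hqm : q ∣ m) (hpq : p ≠ q) (hy' : PE q y') (hyZ' : y' ∉ center G)
  (hc : y' ∈ 𝒞[y])
include hq hqm hpq hy' hyZ' hc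

theorem centK_le : 𝒞(piCoreOf {p}ᶜ 𝒞[y]) ≤ 𝒞[y] := by
  set K := piCoreOf {p}ᶜ 𝒞[y] with hK
  have hyK : y' ∈ K := (h.memK hp hpm hy hyZ).2 ⟨hc, pe_compl hp hq hpq hy'⟩
  have h1 : 𝒞[y] ≤ 𝒩(𝒞(K)) := norm_cent (le_norm_piCoreOf _ _)
  have h2 : 𝒞(K) ≤ 𝒞[y'] := cent_le_cent1 hyK
  have h3 : 𝒞[y].relIndex 𝒞(K) ∣ cs(y) :=
    relIndex_sup_of_norm (.inr h1) ▸ relIndex_dvd_index_of_le le_sup_right
  have h4 : Commute y y' := (mem_cent1.1 hc).symm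
  have h5 := hy.coprime_orderOf hp hq hpq hy'
  have h6 : 𝒞[y].relIndex 𝒞(K) ∣ n := by
    have h6 := h.rel_dvd (mul_not_mem_center h4 h5 hyZ) hyZ'
      (cent_mul_of_coprime h4 h5 ▸ inf_le_right)
    rw [cent_mul_of_coprime h4 h5] at h6
    refine Dvd.dvd.trans ?_ h6
    rw [← inf_relIndex_right, ← inf_eq_right.2 h2, ← inf_assoc, inf_eq_right.2 h2,
      inf_relIndex_right, ← relIndex_sup_of_norm (.inr (inf_le_left.trans h1))]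
    exact relIndex_dvd_relIndex_of_le_right le_sup_right (sup_le h2 inf_le_right)
  refine relIndex_eq_one.1 (by_contra fun e => ?_)
  obtain ⟨s, hs, h7⟩ := Nat.exists_prime_and_dvd e
  have := Fact.mk hs
  obtain ⟨v, hv, h8, h9⟩ := exists_PE_of_dvd_relIndex hs h7
  have hsp : p ≠ s := fun e => h.not_dvd hp hpm (e ▸ h7.trans h6)
  have hsq : q ≠ s := fun e => h.not_dvd hq hqm (e ▸ h7.trans h6)
  have hl : cs(y) = m * n := (h.cs_eq y hyZ).resolve_left fun e =>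
    h.not_dvd hs (e ▸ h7.trans h3) (h7.trans h6)
  have h10 : Commute y' v := (mem_cent1.1 (h2 hv)).symm
  have h11 := hy'.coprime_orderOf hq hs hsq h8
  have h12 := cent_mul_of_coprime h10 h11
  have h13 := mul_not_mem_center h10 h11 hyZ'
  rcases h.cs_eq _ h13 with e | e
  · exact h9 (mem_cent1_comm.1 (h12.le ((h.eq_of_small e hyZ' (h12 ▸ inf_le_left)).ge
      (mem_cent1_comm.1 hc))).2)
  obtain ⟨w, hw, h14, h15⟩ := h.exists_pe hp hpm h13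
  have h16 := h12.le hw
  obtain ⟨c, -, h17⟩ := sylowOf_subJ (h.syl_transfer hp hpm hyZ hyZ' (h.sylD hp hpm hy hyZ)
    (h.D_le hp hpm hy hyZ hc (pe_compl hp hq hpq hy'))) (zpowers_le.2 h16.1)
    (isPi_zpowers.2 ((pe_iff hp).1 h14))
  have h18 := h.K_eq hp hpm hy hyZ (piCoreOf_le _ _ (h17 (conj_mem_cj.2 (mem_zpowers w))))
    (h14.conj c) (conj_not_mem_center h15 c)
  have h19 : cs(w) = m * n := by
    refine (h.cs_eq _ h15).resolve_left fun e' => ?_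
    obtain ⟨R, hR⟩ := not_dvd_index_iff.1 fun e'' : s ∣ cs(c * w * c⁻¹) =>
      h.not_dvd hs (e' ▸ cs_conj c w ▸ e'') (h7.trans h6)
    exact not_dvd_index_iff.2 ⟨R, (((h.hallK hp hpm (h14.conj c) (conj_not_mem_center h15 c)
      ).le_of_normal (le_norm_piCoreOf _ _) hR ((sylowOf_top hs R).pi.compl_singleton_of_ne
        hsp.symm)).trans h18.le).trans (piCoreOf_le _ _)⟩ (h7.trans h3)
  have h20 := h.K_le_of_large hp hpm h14 h15 h19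
  have h21 : v ∈ piCoreOf {p}ᶜ 𝒞[w] := (h.memK hp hpm h14 h15).2
    ⟨mem_cent1_comm.1 h16.2, pe_compl hp hs hsp h8⟩
  have h22 : 𝒞[w] = 𝒞[y' * v] := h.eq_of_large e (h12.ge.trans' (le_inf (le_cent1_iff.2 (h20
    ((h.memK hp hpm h14 h15).2 ⟨mem_cent1_comm.1 h16.1, pe_compl hp hq hpq hy'⟩)))
      (le_cent1_iff.2 (h20 h21))))
  have h23 : K ≤ piCoreOf {p}ᶜ 𝒞[w] := (h.hallK hp hpm h14 h15).le_of_normal
    (le_norm_piCoreOf _ _) (h22.ge.trans' (h12.ge.trans' (le_inf ((h.K_le_of_large hp hpm hy hyZ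
      hl).trans (cent_le_cent1 hc)) (le_cent1_iff.2 hv)))) (piCoreOf_pi _ _)
  rw [← cj_cent1, ← cj_piCoreOf] at h18
  exact h9 (piCoreOf_le _ _ ((eq_of_le_of_card_eq h23 (by rw [hK, ← h18, card_cj])).ge h21))

theorem cent_eq (hu : u ∈ 𝒞[y]) (hu' : PE p u) (huZ : u ∉ center G) : 𝒞[u] = 𝒞[y] := by
  have key : ∀ {u y : G}, PE p u → u ∉ center G → PE p y → y ∉ center G → y' ∈ 𝒞[y] →
      u ∈ 𝒞[y] → 𝒞[u] ≤ 𝒞[y] := fun {u y} hu' huZ hy hyZ hc hu => by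
    rw [← ((h.sylD hp hpm hu' huZ).isProd (h.hallK hp hpm hu' huZ)).sup_eq]
    refine sup_le ((piCoreOf_cent_compl _ _).trans ?_) ?_ <;> rw [h.K_eq hp hpm hy hyZ hu hu' huZ]
    · exact h.centK_le hp hpm hy hyZ hq hqm hpq hy' hyZ' hc
    · exact piCoreOf_le _ _
  exact le_antisymm (key hu' huZ hy hyZ hc hu) (key hy hyZ hu' huZ (mem_cent1_comm.1 (h.D_le hp hpm
    hy hyZ hc (pe_compl hp hq hpq hy') ((h.memD hp hpm hy hyZ).2 ⟨hu, hu'⟩)))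
    (mem_cent1_comm.1 hu))

theorem centD : 𝒞(piCoreOf {p} 𝒞[y]) = 𝒞[y] := by
  refine le_antisymm (cent_le_cent1 ((h.memD hp hpm hy hyZ).2 ⟨self_mem_cent1 y, hy⟩))
    (cent_symm fun u hu => le_cent1_iff.1 ?_)
  rw [h.memD hp hpm hy hyZ] at hu
  by_cases huZ : u ∈ center G
  · exact le_top.trans (centralizer_eq_top_iff_subset.2 (Set.singleton_subset_iff.2 huZ)).ge
  · exact (h.cent_eq hp hpm hy hyZ hq hqm hpq hy' hyZ' hc hu.1 hu.2 huZ).ge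

theorem side : (∃ g ∈ 𝒩(piCoreOf {p} 𝒞[y]) ⊓ 𝒩(piCoreOf {q} 𝒞[y']), PE p g ∧ g ∉ 𝒞[y]) ∧
    𝒩(piCoreOf {p} 𝒞[y]) ⊓ 𝒩(piCoreOf {q} 𝒞[y']) ⊓ 𝒞[y'] ≤ 𝒞[y] := by
  have := Fact.mk hp
  have hc' := mem_cent1_comm.1 hc
  have hC := h.centD hp hpm hy hyZ hq hqm hpq hy' hyZ' hc
  have hC' := h.centD hq hqm hy' hyZ' hp hpm hpq.symm hy hyZ hc'
  have hS := h.syl_transfer hp hpm hyZ hyZ' (h.sylD hp hpm hy hyZ)
    (h.D_le hp hpm hy hyZ hc (pe_compl hp hq hpq hy'))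
  have hS' := h.syl_transfer hq hqm hyZ' hyZ (h.sylD hq hqm hy' hyZ')
    (h.D_le hq hqm hy' hyZ' hc' (pe_compl hq hp hpq.symm hy))
  have hE := fun u => h.cent_eq (u := u) hp hpm hy hyZ hq hqm hpq hy' hyZ' hc
  have hM := fun u => h.memD (u := u) hp hpm hy hyZ
  set D := piCoreOf {p} 𝒞[y]
  set D' := piCoreOf {q} 𝒞[y']
  have hDB : D ≤ 𝒞[y] := piCoreOf_le _ _
  have hDa : IsMulCommutative D := abelian_iff.2 (hDB.trans hC.ge)
  have hN : 𝒩(D) ≤ 𝒩(𝒞[y]) := hC ▸ norm_cent le_rfl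
  have hN' : 𝒩(D') ≤ 𝒩(𝒞[y']) := hC' ▸ norm_cent le_rfl
  have h1 : ∃ g ∈ 𝒩(D) ⊓ 𝒩(D'), PE p g ∧ g ∉ 𝒞[y] := by
    obtain ⟨g, -, h1, h2, h3⟩ := exists_PE_normalizes (K := 𝒞[y]) (H := ⊤) le_top hp
      (by rw [relIndex_top_right]; exact hpm.trans (h.dvd_cs hyZ)) fun a ha b hb h1 h2 =>
        setLike_mul_comm ((hM a).2 ⟨ha, h1⟩) ((hM b).2 ⟨hb, h2⟩)
    have h4 : g ∈ 𝒩(D) := mem_norm_of_cj_le (by
      rintro _ ⟨v, hv, rfl⟩
      exact (hM _).2 ⟨h3 v ((hM v).1 hv).1 ((hM v).1 hv).2, ((hM v).1 hv).2.conj g⟩)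
    refine exists_PE_of_dvd_relIndex hp ?_
    rw [(frattini_arg (hC.ge.trans (cent_le_norm _)) hN hS').symm.relIndex_eq]
    exact dvd_relIndex_of_PE hN hp h4 h2 h1
  have h2 : ∀ g ∈ 𝒩(D), PE p g → g ∈ 𝒞[y'] → g ∈ D := fun g h2 h3 h4 => zpowers_le.1
    (hS.le_of_norm (zpowers_le.2 h4) (isPi_zpowers.2 ((pe_iff hp).1 h3)) (.inl (zpowers_le.2 h2)))
  refine ⟨h1, le_of_sylowOf_le fun s hs _ => ?_⟩
  obtain ⟨R, hR⟩ := exists_sylowOf s (𝒩(D) ⊓ 𝒩(D') ⊓ 𝒞[y'])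
  refine ⟨R, hR, ?_⟩
  have hRD : R ≤ 𝒩(D) := hR.le.trans (inf_le_left.trans inf_le_left)
  by_cases hsp : s = p
  · exact (hS.le_of_norm (hR.le.trans inf_le_right) (hsp ▸ hR.pi) (.inl hRD)).trans hDB
  obtain ⟨g, h3, h4, h5⟩ := h1
  have h6 : 𝒩(D) ⊓ 𝒩(D') ≤ 𝒩(𝒩(D) ⊓ 𝒩(D') ⊓ 𝒞[y']) :=
    norm_inf le_normalizer (inf_le_right.trans hN')
  obtain ⟨g, h7, h8, h9⟩ := exists_PE_of_dvd_relIndex hp ((frattini_arg inf_le_left h6 hR
    ).symm.relIndex_eq ▸ dvd_relIndex_of_PE h6 hp h3 h4 fun e => h5 (hDB (h2 g h3.1 h4 e.2)))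
  have h10 := coprime_abelian_dp hDa hRD ((hR.pi.compl_singleton_of_ne hsp).coprime' hS.pi)
  refine by_contra fun e => ?_
  have h11 : ⁅D, R⁆ ≠ ⊥ := fun e' => e (hC.le.trans' (cent_symm
    (commutator_eq_bot_iff_le_centralizer.1 e')))
  have h12 : zpowers g ≤ 𝒩(⁅D, R⁆) := norm_commutator (zpowers_le.2 h7.1.1) (zpowers_le.2 h7.2)
  have h13 := inf_center_ne_bot_of_nilpotent ((isPi_zpowers.2 ((pe_iff hp).1 h8)).sup
    (hS.pi.of_le h10.right_le) (.inl h12)).nilpotent le_sup_right (sup_le h12 le_normalizer) h11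
  obtain ⟨u, hu, u1⟩ := ne_bot_iff_exists.1 h13
  have h14 := (hM u).1 (h10.right_le hu.1)
  have h15 := hE u h14.1 h14.2 fun e' => u1 (mem_bot.1 (h10.isSdp.isComplIn.2.2.1.le
    ⟨⟨h10.right_le hu.1, center_le_centralizer _ e'⟩, hu.1⟩))
  have h16 : g ∈ 𝒞[y] := h15.le (mem_cent1.2 (hu.2 g (mem_sup_left (mem_zpowers g))))
  exact h9 ⟨h7.1, hS.le ((hM g).2 ⟨h16, h8⟩)⟩

theorem false_of_two : False := by
  have hc' := mem_cent1_comm.1 hc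
  obtain ⟨⟨g, h1, h2, h3⟩, h4⟩ := h.side hp hpm hy hyZ hq hqm hpq hy' hyZ' hc
  obtain ⟨⟨g', h5, h6, h7⟩, h8⟩ := h.side hq hqm hy' hyZ' hp hpm hpq.symm hy hyZ hc'
  rw [inf_comm] at h5
  rw [inf_comm 𝒩(_)] at h8
  have hC : 𝒞(piCoreOf {p} 𝒞[y] ⊔ piCoreOf {q} 𝒞[y']) = 𝒞[y] ⊓ 𝒞[y'] := by
    rw [cent_sup, h.centD hp hpm hy hyZ hq hqm hpq hy' hyZ' hc,
      h.centD hq hqm hy' hyZ' hp hpm hpq.symm hy hyZ hc']
  have hK : piCoreOf {p} 𝒞[y] ⊔ piCoreOf {q} 𝒞[y'] ≤ 𝒞[y] ⊓ 𝒞[y'] :=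
    sup_le (le_inf (piCoreOf_le _ _) (h.D_le hp hpm hy hyZ hc (pe_compl hp hq hpq hy')))
      (le_inf (h.D_le hq hqm hy' hyZ' hc' (pe_compl hq hp hpq.symm hy)) (piCoreOf_le _ _))
  have E : ∀ e ∈ 𝒩(piCoreOf {p} 𝒞[y]) ⊓ 𝒩(piCoreOf {q} 𝒞[y']),
      e ∉ 𝒞(piCoreOf {p} 𝒞[y] ⊔ piCoreOf {q} 𝒞[y']) →
      ∀ u ∈ piCoreOf {p} 𝒞[y] ⊔ piCoreOf {q} 𝒞[y'], PE q u → Commute e u → u ∈ center G :=
    fun e he h9 u hu h10 h11 => by_contra fun h12 => by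
      have h13 := (h.cent_eq hq hqm hy' hyZ' hp hpm hpq.symm hy hyZ hc' (hK hu).2 h10 h12).le
        (mem_cent1.2 h11)
      exact h9 (hC.ge ⟨h4 ⟨he, h13⟩, h13⟩)
  obtain ⟨k, hk⟩ := pow_mem_cent_of_few_fixed (fun a ha b hb => (hC.ge (hK hb) a ha))
    (norm_sup inf_le_left inf_le_right) hp
    ⟨y, mem_sup_left ((h.memD hp hpm hy hyZ).2 ⟨self_mem_cent1 y, hy⟩), hy, hyZ⟩
    (fun e he h9 u hu h10 h11 => by_contra fun h12 => by
      have h13 := (h.cent_eq hp hpm hy hyZ hq hqm hpq hy' hyZ' hc (hK hu).1 h10 h12).le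
        (mem_cent1.2 h11)
      exact h9 (hC.ge ⟨h13, h8 ⟨he, h13⟩⟩))
    (fun e he h9 => ⟨q, hq, hpq.symm, ⟨y', mem_sup_right ((h.memD hq hqm hy' hyZ').2
      ⟨self_mem_cent1 y', hy'⟩), hy', hyZ'⟩, E e he h9, fun g hg h10 _ => E g hg h10⟩)
    h1 h2 (fun e => h3 (hC.le e).1) h5
  exact h7 (hC.le (h6.mem_of_pow_mem (((Nat.coprime_primes hq hp).2 hpq.symm).pow_right k) hk)).2

omit hy hyZ hpq hy' hyZ' hc in
theorem prime_unique : p = q := by_contra fun hpq => by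
  obtain ⟨g, hg⟩ := h.ex_s
  obtain ⟨y, -, h1, h2⟩ := h.exists_pe hp hpm (h.nc_s hg)
  obtain ⟨y', h3, h4, h5⟩ := h.exists_pe hq hqm h2
  exact h.false_of_two hp hpm h1 h2 hq hqm hpq h4 h5 h3

end T3

end Cfsg.Agent.H6
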