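/-
`p`-solvable groups whose maximal subgroups are `p`-nilpotent or of prime index.
-/
import Cfsg.Agent.H49.Hall
import Cfsg.Agent.H22.PSolvable
import Cfsg.Agent.H3.PGroup

set_option autoImplicit false

namespace Cfsg.Agent.H6

open Subgroup Cfsg.Agent Cfsg.Agent.H49

universe u

/-- `p`-nilpotent -/
def PNil (p : ℕ) (G : Type*) [Group G] : Prop :=
  ∃ K : Subgroup G, K.Normal ∧ IsPi {p}ᶜ K ∧ IsPiNat {p} K.index

theorem PNil.of_surjective {p : ℕ} {G G' : Type*} [Group G] [Group G'] (h : PNil p G)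
    (f : G →* G') (hf : Function.Surjective f) : PNil p G' :=
  let ⟨K, h1, h2, h3⟩ := h
  ⟨K.map f, h1.map f hf, h2.map f, h3.of_dvd (index_map_dvd K hf)⟩

/-- `G = O_{p',p,p',p}(G)` -/
def Ch (p : ℕ) (G : Type*) [Group G] : Prop :=
  ∃ A B C : Subgroup G, A.Normal ∧ B.Normal ∧ C.Normal ∧ A ≤ B ∧ B ≤ C ∧ IsPi {p}ᶜ A ∧
    IsPiNat {p} (A.relIndex B) ∧ IsPiNat {p}ᶜ (B.relIndex C) ∧ IsPiNat {p} C.index

variable {G : Type u} [Group G] [Finite G] {p : ℕ}

theorem eq_of_le_frattini {N A : Subgroup G} [N.Normal] [A.Normal] (hp : p.Prime)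
    (hO : pPrimeCore p G = ⊥) (hN : N ≤ frattini G) (hNp : IsPi {p} N) (hNA : N ≤ A)
    (hA : IsPiNat {p}ᶜ (N.relIndex A)) : A = N := by
  obtain ⟨H, hH⟩ := exists_compl_of_coprime hNA le_normalizer_of_normal (IsPiNat.coprime hNp hA)
  have hH' : IsPi {p}ᶜ H := by rwa [hH.relIndex_left] at hA
  have h1 : 𝒩(H) ⊔ frattini G = ⊤ := eq_top_iff.2 fun g _ => by
    have h2 := hH.cj g
    rw [cj_eq_of_mem_norm (X := N) (le_normalizer_of_normal (mem_top g)),
      cj_eq_of_mem_norm (X := A) (le_normalizer_of_normal (mem_top g))] at h2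
    obtain ⟨n, hn, e⟩ := sdp_conj hH h2 (hH'.coprime' hNp)
      (.inr (solvable_of_nilpotent hNp.nilpotent))
    have h3 : g⁻¹ * n ∈ 𝒩(H) := mem_norm_iff_cj.2 (by rw [cj_mul, e, ← cj_mul]; simp)
    simpa using inv_mem (mul_mem (mem_sup_left h3) (mem_sup_right (hN (inv_mem hn))))
  have h2 : H ≤ ⊥ := hO ▸ H22.le_pPrimeCore (normalizer_eq_top_iff.1 (frattini_nongenerating h1))
    ((isPi_compl_singleton_iff_coprime hp).1 hH')
  rw [← hH.isProd.sup_eq, le_bot_iff.1 h2, sup_bot_eq]

theorem ch_of_max [hp : Fact p.Prime] (hG : IsPSolvable p G)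
    (h : ∀ M : Subgroup G, IsCoatom M → PNil p M ∨ M.index.Prime) : Ch p G := by
  induction hn : Nat.card G using Nat.strong_induction_on generalizing G with
  | _ n ih =>
  have quo : ∀ (N : Subgroup G) [N.Normal], N ≠ ⊥ → ∃ A B C : Subgroup G, A.Normal ∧ B.Normal ∧
      C.Normal ∧ N ≤ A ∧ A ≤ B ∧ B ≤ C ∧ IsPiNat {p}ᶜ (N.relIndex A) ∧
      IsPiNat {p} (A.relIndex B) ∧ IsPiNat {p}ᶜ (B.relIndex C) ∧ IsPiNat {p} C.index := by
    intro N _ hN
    have hf := QuotientGroup.mk'_surjective N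
    obtain ⟨A, B, C, _, _, _, h1, h2, h3, h4, h5, h6⟩ := ih _ (hn ▸ by
      have := N.card_mul_index
      have := (one_lt_card_iff_ne_bot N).2 hN
      have := Nat.card_pos (α := G ⧸ N)
      rw [index] at *
      nlinarith) (H22.IsPSolvable.quotient hG N) (fun M hM => (h _
        (isCoatom_comap_of_surjective hf hM)).imp (fun h => h.of_surjective
          ((QuotientGroup.mk' N).subgroupComap M) (MonoidHom.subgroupComap_surjective_of_surjective
            _ _ hf)) fun h => by rwa [index_comap_of_surjective _ hf] at h) rfl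
    have e : ∀ X Y : Subgroup (G ⧸ N), (X.comap (QuotientGroup.mk' N)).relIndex
        (Y.comap (QuotientGroup.mk' N)) = X.relIndex Y := fun X Y => by
      rw [relIndex_comap, map_comap_eq_self_of_surjective hf]
    have e0 : N = (⊥ : Subgroup (G ⧸ N)).comap (QuotientGroup.mk' N) := by
      rw [MonoidHom.comap_bot, QuotientGroup.ker_mk']
    refine ⟨A.comap (QuotientGroup.mk' N), B.comap _, C.comap _, inferInstance, inferInstance,
      inferInstance, e0.le.trans (comap_mono bot_le), comap_mono h1, comap_mono h2, ?_,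
      (e A B).symm ▸ h4, (e B C).symm ▸ h5, (index_comap_of_surjective _ hf).symm ▸ h6⟩
    have := e ⊥ A
    rw [← e0, relIndex_bot_left] at this
    exact this ▸ h3
  by_cases hO : pPrimeCore p G = ⊥
  swap
  · obtain ⟨A, B, C, h1, h2, h3, h4, h5, h6, h7, h8⟩ := quo _ hO
    exact ⟨A, B, C, h1, h2, h3, h5, h6, IsPi.of_relIndex' ((isPi_compl_singleton_iff_coprime
      hp.out).2 H22.coprime_card_pPrimeCore) h7, h8⟩
  by_cases hΦ : frattini G = ⊥
  swap
  · obtain ⟨A, B, C, h1, h2, h3, h4, h5, h6, h7, h8, h9⟩ := quo _ hΦ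
    have hΦp : IsPi {p} (frattini G) := by
      have h1 := nilpotent_hall_piCoreOf (H := frattini G) frattini_nilpotent {p}ᶜ
      have h2 : piCoreOf {p}ᶜ (frattini G) ≤ ⊥ := hO ▸ H22.le_pPrimeCore
        (normal_iff_top_le_norm.2 (norm_piCoreOf _ le_normalizer_of_normal))
        ((isPi_compl_singleton_iff_coprime hp.out).1 (piCoreOf_pi _ _))
      rw [le_bot_iff.1 h2] at h1
      exact fun q hq h => by_contra fun h' => h1.2.2 q hq h' (by rwa [relIndex_bot_left])
    obtain rfl := eq_of_le_frattini hp.out hO le_rfl hΦp h4 h7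
    exact ⟨⊥, B, C, inferInstance, h2, h3, bot_le, h6, isPi_bot _,
      by rw [relIndex_bot_left]; exact hΦp.of_relIndex' h8, h9⟩
  set F := pCore p G
  have hF : IsPi {p} F := isPi_of_isPGroup hp.out H22.isPGroup_pCore
  have hF' : IsPiNat {p} ((⊥ : Subgroup G).relIndex F) := by rw [relIndex_bot_left]; exact hF
  by_cases h1 : ∃ M : Subgroup G, IsCoatom M ∧ ¬ F ≤ M ∧ PNil p M
  · obtain ⟨M, hM, hFM, K, hK, h2, h3⟩ := h1
    have h4 : M ⊔ F = ⊤ := hM.2 _ (left_lt_sup.2 hFM)
    have h5 : M ≤ 𝒩(K.map M.subtype) := le_norm_iff.2 fun a ha x ⟨y, hy, e⟩ =>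
      ⟨_, hK.conj_mem y hy ⟨a, ha⟩, e ▸ rfl⟩
    refine ⟨⊥, F, K.map M.subtype ⊔ F, inferInstance, inferInstance, ?_, bot_le, le_sup_right,
      isPi_bot _, hF', ?_, ?_⟩
    · rw [← normalizer_eq_top_iff, eq_top_iff, ← h4]
      exact sup_le (norm_sup h5 le_normalizer_of_normal) (norm_of_le le_sup_right)
    · rw [relIndex_sup_of_norm (.inl le_normalizer_of_normal)]
      exact (h2.map _).relIndex _
    · have h6 : IsProd M (K.map M.subtype ⊔ F) ⊤ := by
        have := isProd_sup_of_norm_right (H := M) (K := K.map M.subtype ⊔ F)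
          (norm_sup h5 le_normalizer_of_normal)
        rwa [← sup_assoc, sup_eq_left.2 (map_subtype_le K), h4] at this
      rw [← relIndex_top_right, ← h6.relIndex_eq]
      exact h3.of_dvd (relIndex_map_subtype_self K ▸ relIndex_dvd_of_le_left M le_sup_left)
  push Not at h1
  obtain ⟨P⟩ : Nonempty (Sylow p G) := inferInstance
  have hFP : F ≤ P := H22.pCore_le_sylow P
  have hPF : (P : Subgroup G) ≤ F := fun g hg => H22.IsPSolvable.centralizer_pCore_le hG hO
    fun f hf => commutatorElement_eq_one_iff_mul_comm.1 (mem_bot.1 (hΦ.le ?_))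
  · exact ⟨⊥, F, ⊤, inferInstance, inferInstance, inferInstance, bot_le, le_top, isPi_bot _, hF',
      by
        rw [relIndex_top_right, isPiNat_compl_singleton hp.out]
        exact fun h => P.not_dvd_index (h.trans (index_dvd_of_le hPF)),
      by rw [index_top]; exact IsPiNat.one _⟩
  refine mem_iInf.2 fun M => mem_iInf.2 fun hM => ?_
  by_cases hFM : F ≤ M
  · exact hFM (commutator_le_left F ⊤ (commutator_mem_commutator hf (mem_top g)))
  have h2 := (h M hM).resolve_left (h1 M hM hFM)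
  have h3 : M.relIndex P = M.index := by
    have h4 : F ⊔ M = ⊤ := by rw [sup_comm]; exact hM.2 _ (left_lt_sup.2 hFM)
    have h5 := isProd_sup_of_norm_left (H := F) (K := M) le_normalizer_of_normal
    rw [h4] at h5
    exact (isProd_of_relIndex_le le_top le_top (h5.relIndex_eq.ge.trans
      (relIndex_le_of_le_right hFP (relIndex_pos _ _).ne'))).relIndex_eq.trans
        (relIndex_top_right M)
  have h4 : (M.subgroupOf P).index = p :=
    h3.trans ((isPi_of_isPGroup hp.out P.isPGroup').relIndex M _ h2 (h3 ▸ dvd_rfl))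
  have := H3.normal_of_index_eq P.isPGroup' h4
  exact H3.commutator_le_of_normal_index_prime h4
    (commutator_mem_commutator (mem_top (⟨f, hFP hf⟩ : P)) (mem_top ⟨g, hg⟩))

end Cfsg.Agent.H6
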