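import Cfsg.Agent.H3.Frobenius
import Cfsg.Agent.H82.Basic

set_option autoImplicit false
open Cfsg Cfsg.Agent Subgroup

namespace Cfsg.Agent.H6

variable {G : Type*} [Group G]

theorem conj_eq_of_comm_fixed [Finite G] {p : ℕ} [Fact p.Prime] {Q : Subgroup G}
    (hQ : IsPGroup p Q) {g y : G} (hg : (orderOf g).Coprime p) (hc : g * y * g⁻¹ * y⁻¹ ∈ Q)
    (hfix : g * (g * y * g⁻¹ * y⁻¹) * g⁻¹ = g * y * g⁻¹ * y⁻¹) : g * y * g⁻¹ = y := by
  set c := g * y * g⁻¹ * y⁻¹ with hcdef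
  have h1 : ∀ n : ℕ, g ^ n * y * (g ^ n)⁻¹ = c ^ n * y := by
    intro n
    induction n with
    | zero => simp
    | succ n ih =>
      have h2 : g * c ^ n * g⁻¹ = c ^ n := by rw [← conj_pow, hfix]
      calc g ^ (n + 1) * y * (g ^ (n + 1))⁻¹ = g * (g ^ n * y * (g ^ n)⁻¹) * g⁻¹ := by
            rw [pow_succ']; group
        _ = (g * c ^ n * g⁻¹) * (g * y * g⁻¹ * y⁻¹) * y := by rw [ih]; group
        _ = c ^ (n + 1) * y := by rw [h2, ← hcdef, pow_succ]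
  have h3 := h1 (orderOf g)
  rw [pow_orderOf_eq_one, one_mul, inv_one, mul_one, eq_comm, mul_eq_right] at h3
  obtain ⟨k, hk⟩ := H82.orderOf_eq_pow_of_mem hQ hc
  have h4 : c ^ p ^ k = 1 := by rw [← hk, pow_orderOf_eq_one]
  have h5 := H82.eq_one_of_pow_coprime (hg.pow_right k) h3 h4
  rw [hcdef, mul_inv_eq_one] at h5
  exact h5

theorem centralizes_of_real_fixed [Finite G] {g : G} (hg : (orderOf g).Coprime 2) (n : ℕ) :
    ∀ Q : Subgroup G, Nat.card Q = n → IsPGroup 2 Q → (∀ y ∈ Q, g * y * g⁻¹ ∈ Q) →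
      (∀ x ∈ Q, ∀ y ∈ Q, y * x * y⁻¹ = x⁻¹ → g * x * g⁻¹ = x) → ∀ y ∈ Q, g * y * g⁻¹ = y := by
  induction n using Nat.strong_induction_on with
  | _ n ih =>
  intro Q hn hQ hinv hreal
  by_contra hcon
  push Not at hcon
  obtain ⟨x, hxQ, hx⟩ := hcon
  have hprop : ∀ R : Subgroup G, R ≤ Q → (∀ y ∈ R, g * y * g⁻¹ ∈ R) →
      R = Q ∨ ∀ y ∈ R, g * y * g⁻¹ = y := by
    intro R hR hRi
    by_cases h : R = Q
    · exact Or.inl h
    · refine Or.inr (ih _ ?_ R rfl (hQ.to_le hR) hRi fun a ha b hb => hreal a (hR ha) b (hR hb))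
      rw [← hn]
      exact Nat.lt_of_le_of_ne (card_le_of_le hR) fun hc =>
        h (eq_of_le_of_card_ge hR hc.ge)
  have hL : ∀ R : Subgroup G, R ≤ Q → (∀ y ∈ R, g * y * g⁻¹ ∈ R) →
      (∀ y ∈ Q, g * y * g⁻¹ * y⁻¹ ∈ R) → R = Q := by
    intro R hR hRi hRc
    refine (hprop R hR hRi).resolve_right fun h => hx ?_
    exact conj_eq_of_comm_fixed hQ hg (hR (hRc x hxQ)) (h _ (hRc x hxQ))
  have hsq : ∀ y ∈ Q, g * (y * y) * g⁻¹ = y * y := by
    let T : Subgroup G := closure {z | ∃ y ∈ Q, z = y * y}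
    have hTQ : T ≤ Q := by
      rw [closure_le]
      rintro _ ⟨y, hy, rfl⟩
      exact Q.mul_mem hy hy
    have hTi : ∀ y ∈ T, g * y * g⁻¹ ∈ T := by
      intro y hy
      have : T ≤ T.comap (MulAut.conj g).toMonoidHom := by
        rw [closure_le]
        rintro _ ⟨y, hy, rfl⟩
        refine subset_closure ⟨g * y * g⁻¹, hinv y hy, ?_⟩
        simp
      exact this hy
    have hne : T ≠ Q := by
      have hQn : Nontrivial Q := by
        refine ⟨⟨⟨x, hxQ⟩, 1, fun h => hx ?_⟩⟩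
        have : x = 1 := congrArg Subtype.val h
        simp [this]
      obtain ⟨k, hk0, hk⟩ := hQ.nontrivial_iff_card.mp hQn
      obtain ⟨k, rfl⟩ := Nat.exists_eq_succ_of_ne_zero hk0.ne'
      obtain ⟨M, hM⟩ := Sylow.exists_subgroup_card_pow_prime_of_le_card Nat.prime_two hQ
        (n := k) (by rw [hk]; exact Nat.pow_le_pow_right two_pos (Nat.le_succ k))
      have hMi : M.index = 2 := by
        have := M.card_mul_index
        rw [hM, hk, pow_succ] at this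
        exact Nat.eq_of_mul_eq_mul_left (by positivity) this
      have hTM : T ≤ M.map Q.subtype := by
        rw [closure_le]
        rintro _ ⟨y, hy, rfl⟩
        exact ⟨⟨y, hy⟩ * ⟨y, hy⟩, mul_self_mem_of_index_two hMi _, rfl⟩
      intro h
      have h2 : M = ⊤ := by
        rw [eq_top_iff]
        intro y _
        obtain ⟨z, hz, hzy⟩ := hTM (h.ge y.2)
        rwa [← (Subtype.ext hzy : z = y)]
      rw [h2, index_top] at hMi
      exact absurd hMi (by norm_num)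
    intro y hy
    exact (hprop T hTQ hTi).resolve_left hne _ (subset_closure ⟨y, hy, rfl⟩)
  have hcomm : ∀ a ∈ Q, ∀ b ∈ Q, g * (a * b * a⁻¹ * b⁻¹) * g⁻¹ = a * b * a⁻¹ * b⁻¹ := by
    intro a ha b hb
    have e : a * b * a⁻¹ * b⁻¹ = (a * a) * ((a⁻¹ * b) * (a⁻¹ * b)) * (b⁻¹ * b⁻¹) := by group
    rw [e]
    calc _ = (g * (a * a) * g⁻¹) * (g * ((a⁻¹ * b) * (a⁻¹ * b)) * g⁻¹) *
          (g * (b⁻¹ * b⁻¹) * g⁻¹) := by group
      _ = _ := by
        rw [hsq a ha, hsq _ (Q.mul_mem (Q.inv_mem ha) hb), hsq _ (Q.inv_mem hb)]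
  have hcen : ∀ d ∈ Q, g * d * g⁻¹ = d → ∀ y ∈ Q, y * d = d * y := by
    intro d hd hgd
    have := hL (Q ⊓ centralizer {d}) inf_le_left (fun y hy => ⟨hinv y hy.1, ?_⟩) (fun y hy => ?_)
    · intro y hy
      rw [← this] at hy
      exact mem_centralizer_singleton_iff.mp hy.2
    · have h1 := mem_centralizer_singleton_iff.mp hy.2
      refine mem_centralizer_singleton_iff.mpr ?_
      calc g * y * g⁻¹ * d = g * y * g⁻¹ * (g * d * g⁻¹) := by rw [hgd]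
        _ = g * (y * d) * g⁻¹ := by group
        _ = (g * d * g⁻¹) * (g * y * g⁻¹) := by rw [h1]; group
        _ = _ := by rw [hgd]
    · refine ⟨Q.mul_mem (hinv y hy) (Q.inv_mem hy), ?_⟩
      refine mem_centralizer_singleton_iff.mpr ?_
      have h1 := hcomm y⁻¹ (Q.inv_mem hy) d hd
      have h2 : g * (y⁻¹ * d * y⁻¹⁻¹ * d⁻¹) * g⁻¹ =
          (g * y * g⁻¹)⁻¹ * (g * d * g⁻¹) * (g * y * g⁻¹) * (g * d * g⁻¹)⁻¹ := by group
      rw [h2, hgd, mul_left_inj] at h1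
      calc g * y * g⁻¹ * y⁻¹ * d = (g * y * g⁻¹) * (y⁻¹ * d * y⁻¹⁻¹) * y⁻¹ := by group
        _ = _ := by rw [← h1]; group
  have hcc : ∀ a ∈ Q, ∀ b ∈ Q, ∀ y ∈ Q, y * (a * b * a⁻¹ * b⁻¹) = (a * b * a⁻¹ * b⁻¹) * y :=
    fun a ha b hb => hcen _ (Q.mul_mem (Q.mul_mem (Q.mul_mem ha hb) (Q.inv_mem ha))
      (Q.inv_mem hb)) (hcomm a ha b hb)
  let W : Subgroup G :=
    { carrier := {z | ∃ y ∈ Q, z = x * y * x⁻¹ * y⁻¹}
      one_mem' := ⟨1, Q.one_mem, by group⟩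
      mul_mem' := by
        rintro _ _ ⟨a, ha, rfl⟩ ⟨b, hb, rfl⟩
        refine ⟨a * b, Q.mul_mem ha hb, ?_⟩
        have := hcc x hxQ b hb a ha
        calc _ = x * a * x⁻¹ * a⁻¹ * (a * (x * b * x⁻¹ * b⁻¹)) * a⁻¹ := by rw [this]; group
          _ = _ := by group
      inv_mem' := by
        rintro _ ⟨a, ha, rfl⟩
        refine ⟨a⁻¹, Q.inv_mem ha, ?_⟩
        have := hcc x hxQ a⁻¹ (Q.inv_mem ha) a ha
        calc _ = a * (x * a⁻¹ * x⁻¹ * a⁻¹⁻¹) * a⁻¹ := by group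
          _ = _ := by rw [this]; group }
  have hWc : ∀ w ∈ W, ∀ y ∈ Q, y * w = w * y := by
    rintro _ ⟨a, ha, rfl⟩
    exact hcc x hxQ a ha
  let R : Subgroup G :=
    { carrier := {y | y ∈ Q ∧ ∀ z ∈ Q, y * z * y⁻¹ * z⁻¹ ∈ W}
      one_mem' := ⟨Q.one_mem, fun z _ => by simp⟩
      mul_mem' := by
        rintro a b ⟨ha, ha'⟩ ⟨hb, hb'⟩
        refine ⟨Q.mul_mem ha hb, fun z hz => ?_⟩
        have h1 : a * b * z * (a * b)⁻¹ * z⁻¹ =
            (a * (b * z * b⁻¹ * z⁻¹)) * a⁻¹ * (a * z * a⁻¹ * z⁻¹) := by group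
        rw [h1, hWc _ (hb' z hz) a ha, mul_inv_cancel_right]
        exact W.mul_mem (hb' z hz) (ha' z hz)
      inv_mem' := by
        rintro a ⟨ha, ha'⟩
        refine ⟨Q.inv_mem ha, fun z hz => ?_⟩
        have h1 : a⁻¹ * z * a⁻¹⁻¹ * z⁻¹ = (a⁻¹ * (a * z * a⁻¹ * z⁻¹)⁻¹) * a := by group
        rw [h1, hWc _ (W.inv_mem (ha' z hz)) _ (Q.inv_mem ha), inv_mul_cancel_right]
        exact W.inv_mem (ha' z hz) }
  have hinv' : ∀ y ∈ Q, g⁻¹ * y * g ∈ Q := by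
    have h1 : g ∈ normalizer (Q : Set G) := mem_normalizer_fintype fun y hy => hinv y hy
    intro y hy
    have := (mem_normalizer_iff.mp (inv_mem h1) y).mp hy
    rwa [inv_inv] at this
  have hR : R = Q := by
    refine (hprop R (fun y hy => hy.1) fun y hy => ⟨hinv y hy.1, fun z hz => ?_⟩).resolve_right
      fun h => hx (h x ⟨hxQ, fun z hz => ⟨z, hz, rfl⟩⟩)
    have h1 : g * y * g⁻¹ * z * (g * y * g⁻¹)⁻¹ * z⁻¹ =
        g * (y * (g⁻¹ * z * g) * y⁻¹ * (g⁻¹ * z * g)⁻¹) * g⁻¹ := by group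
    rw [h1, hcomm y hy.1 _ (hinv' z hz)]
    exact hy.2 _ (hinv' z hz)
  have hcW : ∀ a ∈ Q, ∀ b ∈ Q, a * b * a⁻¹ * b⁻¹ ∈ W := fun a ha => by
    rw [← hR] at ha
    exact ha.2
  let K : Subgroup G :=
    { carrier := {y | y ∈ Q ∧ y * y ∈ W}
      one_mem' := ⟨Q.one_mem, by simp⟩
      mul_mem' := by
        rintro a b ⟨ha, ha'⟩ ⟨hb, hb'⟩
        refine ⟨Q.mul_mem ha hb, ?_⟩
        have h1 : a * b * (a * b) = (a * a) * (a⁻¹ * b * a⁻¹⁻¹ * b⁻¹) * (b * b) := by group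
        rw [h1]
        exact W.mul_mem (W.mul_mem ha' (hcW _ (Q.inv_mem ha) b hb)) hb'
      inv_mem' := by
        rintro a ⟨ha, ha'⟩
        refine ⟨Q.inv_mem ha, ?_⟩
        rw [← mul_inv_rev]
        exact W.inv_mem ha' }
  have hK : K = Q := by
    refine hL K (fun y hy => hy.1) (fun y hy => ⟨hinv y hy.1, ?_⟩) fun y hy =>
      ⟨Q.mul_mem (hinv y hy) (Q.inv_mem hy), ?_⟩
    · have h1 : g * y * g⁻¹ * (g * y * g⁻¹) = g * (y * y) * g⁻¹ := by group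
      rw [h1, hsq y hy.1]
      exact hy.2
    · have h1 : g * y * g⁻¹ * y⁻¹ * (g * y * g⁻¹ * y⁻¹) =
          ((g * y * g⁻¹) * y⁻¹ * (g * y * g⁻¹)⁻¹ * y⁻¹⁻¹) *
            (y⁻¹ * (g * (y * y) * g⁻¹) * y⁻¹) := by group
      rw [h1, hsq y hy]
      simpa using hcW _ (hinv y hy) _ (Q.inv_mem hy)
  have hxK : x ∈ K := hK ▸ hxQ
  obtain ⟨y, hy, hxy⟩ := hxK.2
  refine hx (hreal x hxQ y hy ?_)
  have h1 : y * x⁻¹ * y⁻¹ = x := by
    calc y * x⁻¹ * y⁻¹ = x⁻¹ * (x * y * x⁻¹ * y⁻¹) := by group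
      _ = x := by rw [← hxy]; group
  calc y * x * y⁻¹ = (y * x⁻¹ * y⁻¹)⁻¹ := by group
    _ = x⁻¹ := by rw [h1]

/-- If all real `2`-elements are central then there is a normal `2`-complement. -/
theorem hasNormalPComplement_of_real_central [Finite G]
    (h : ∀ x t : G, (∃ k, orderOf x = 2 ^ k) → (∃ k, orderOf t = 2 ^ k) → t * x * t⁻¹ = x⁻¹ →
      x ∈ center G) : HasNormalPComplement 2 G := by
  rw [H3.hasNormalPComplement_iff_frobenius]
  intro Q hQ g hg hgo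
  have h1 := centralizes_of_real_fixed hgo _ Q rfl hQ
    (fun y hy => (mem_normalizer_iff.mp hg y).mp hy) fun x hx y hy hxy => by
      have := h x y (H82.orderOf_eq_pow_of_mem hQ hx) (H82.orderOf_eq_pow_of_mem hQ hy) hxy
      rw [mem_center_iff.mp this g, mul_inv_cancel_right]
  intro y hy
  have := h1 y hy
  rw [mul_inv_eq_iff_eq_mul] at this
  exact this.symm

end Cfsg.Agent.H6
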