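import Cfsg.Agent.H86.KW
import Cfsg.Agent.H35.BlkExt
import Cfsg.Agent.H33.Third
import Cfsg.Agent.H33.Princ

set_option autoImplicit false
open Cfsg Cfsg.Agent
open scoped ComplexConjugate

namespace Cfsg.Agent.H6

/-- A sequence starting and ending at zero, not identically zero, jumps at least twice. -/
theorem two_le_card_jumps (a : ℕ → ℂ) (e : ℕ) (h0 : a 0 = 0) (he : a (e + 1) = 0) {j : ℕ}
    (hj : j ≤ e + 1) (hne : a j ≠ 0) :
    ∃ t ⊆ Finset.range (e + 1), 2 ≤ t.card ∧ ∀ i ∈ t, a i - a (i + 1) ≠ 0 := by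
  classical
  have h1 : ∃ i, i < j ∧ a i - a (i + 1) ≠ 0 := by
    by_contra hc
    push Not at hc
    have : ∀ i, i ≤ j → a i = 0 := by
      intro i
      induction i with
      | zero => intro _; exact h0
      | succ i ih =>
        intro hi
        have h2 := hc i (by omega)
        rw [ih (by omega)] at h2
        simpa using h2
    exact hne (this j le_rfl)
  have h2 : ∃ i, j ≤ i ∧ i < e + 1 ∧ a i - a (i + 1) ≠ 0 := by
    by_contra hc
    push Not at hc
    have : ∀ k, j + k ≤ e + 1 → a (j + k) = a j := by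
      intro k
      induction k with
      | zero => intro _; rfl
      | succ k ih =>
        intro hk
        have h2 := hc (j + k) (by omega) (by omega)
        rw [← add_assoc, ← sub_eq_zero.mp h2, ih (by omega)]
    have h3 := this (e + 1 - j) (by omega)
    rw [show j + (e + 1 - j) = e + 1 by omega, he] at h3
    exact hne h3.symm
  obtain ⟨i₁, hi₁, hn₁⟩ := h1
  obtain ⟨i₂, hi₂, hi₂', hn₂⟩ := h2
  refine ⟨{i₁, i₂}, ?_, ?_, ?_⟩
  · intro i hi
    simp only [Finset.mem_insert, Finset.mem_singleton] at hi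
    rw [Finset.mem_range]
    rcases hi with rfl | rfl <;> omega
  · rw [Finset.card_pair (by omega)]
  · intro i hi
    simp only [Finset.mem_insert, Finset.mem_singleton] at hi
    rcases hi with rfl | rfl <;> assumption

variable {N : Type*} [Group N]

open Classical in
/-- The regular character. -/
noncomputable def regFun (N : Type*) [Group N] : N → ℂ :=
  fun g => if g = 1 then (Nat.card N : ℂ) else 0

theorem regFun_isClassFunction : IsClassFunction N (regFun N) := by
  intro g h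
  unfold regFun
  have : h * g * h⁻¹ = 1 ↔ g = 1 := by
    rw [mul_inv_eq_one, mul_eq_left]
  by_cases hg : g = 1
  · rw [if_pos hg, if_pos (this.mpr hg)]
  · rw [if_neg hg, if_neg (mt this.mp hg)]

theorem ci_regFun_right [Fintype N] (f : N → ℂ) : classInner f (regFun N) = f 1 := by
  classical
  unfold classInner regFun
  rw [Finset.sum_eq_single 1]
  · simp only [if_true, map_natCast]
    have := card_ne_zero_complex N
    field_simp
  · intro b _ hb
    simp [hb]
  · simp

theorem reg_regFun {p : ℕ} (hp : p.Prime) : pRegularPart p (regFun N) = regFun N := by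
  apply H86.reg_eq_self
  intro g hg
  unfold regFun
  rw [if_neg]
  rintro rfl
  rw [orderOf_one] at hg
  exact hp.one_lt.ne' (Nat.dvd_one.mp hg)

theorem blockPart_regFun [Fintype N] (B : Set (IrrCharacter N)) :
    blockPart B (regFun N) = ∑ χ ∈ H86.fs B, (charDegree (χ : N → ℂ) : ℂ) • (χ : N → ℂ) := by
  rw [H86.blockPart_eq]
  refine Finset.sum_congr rfl fun χ _ => ?_
  rw [← H53.ci_conj, ci_regFun_right, H35.cast_degree_irr, map_natCast]

variable {M : Ideal AlgInt} [hMm : M.IsMaximal] {p : ℕ}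

theorem isPBlock_principal (M : Ideal AlgInt) (N : Type*) [Group N] :
    IsPBlock M (principalBlock M N) := ⟨H35.triv N, rfl⟩

theorem triv_mem_principal [Finite N] : H35.triv N ∈ principalBlock M N :=
  H33.sameBlock_refl _

/-- A family of projective generalized characters in the principal block detecting functions. -/
structure PFam (M : Ideal AlgInt) (p : ℕ) (N : Type*) [Group N] [Fintype N] (m k : ℕ)
    (Ψ : ℕ → N → ℂ) : Prop where
  virt : ∀ j, IsGeneralizedCharacter N (Ψ j)
  reg : ∀ j, pRegularPart p (Ψ j) = Ψ j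
  part : ∀ j, blockPart (principalBlock M N) (Ψ j) = Ψ j
  det : ∀ f : N → ℂ, classInner f (blockPart (principalBlock M N) (regFun N)) ≠ 0 →
    ∃ t ⊆ Finset.range k, m ≤ t.card ∧ ∀ j ∈ t, classInner f (Ψ j) ≠ 0

theorem pfam_of_not_dvd [Fintype N] (hM : IsPModular p M) (h : ¬ p ∣ Nat.card N) :
    PFam M p N 1 1 (fun _ _ => 1) := by
  have hreg : ∀ g : N, ¬ p ∣ orderOf g := fun g hg => h (hg.trans (orderOf_dvd_natCard g))
  have hb : H86.fs (principalBlock M N) = {H35.triv N} := by
    ext χ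
    rw [H86.mem_fs, Finset.mem_singleton]
    refine ⟨fun hχ => ?_, fun hχ => hχ ▸ triv_mem_principal⟩
    rw [H33.mem_principalBlock_iff hM] at hχ
    by_contra hne
    apply hχ
    have h1 : classInner (χ : N → ℂ) (H35.triv N : N → ℂ) = 0 :=
      H53.irr_ci_ne χ.2 (H35.triv N).2 fun h => hne (Subtype.ext h)
    unfold classInner at h1
    rw [mul_eq_zero] at h1
    rcases h1 with h1 | h1
    · exact absurd h1 (inv_ne_zero (card_ne_zero_complex N))
    · rw [H33.regSum_def, ← h1]
      refine Finset.sum_congr rfl fun g _ => ?_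
      rw [H33.rInd_of_regular (hreg g), H35.triv_apply, map_one, one_mul, mul_one]
  refine ⟨fun _ => H53.virt_one, fun _ => H86.reg_eq_self fun g hg => absurd hg (hreg g),
    fun _ => H86.blockPart_irr_of_mem (χ := H35.triv N) triv_mem_principal, fun f hf => ?_⟩
  refine ⟨{0}, by simp, by simp, fun j _ => ?_⟩
  rw [blockPart_regFun, hb, Finset.sum_singleton, H35.degree_triv, Nat.cast_one, one_smul] at hf
  exact hf

theorem pfam_of_prime [Fintype N] [hp : Fact p.Prime] (hM : IsPModular p M)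
    (h1 : p ∣ Nat.card N) (h2 : ¬ p ^ 2 ∣ Nat.card N) :
    ∃ (k : ℕ) (Ψ : ℕ → N → ℂ), PFam M p N 2 k Ψ ∧
      ∑ j ∈ Finset.range k, (classInner (Ψ j) (Ψ j)).re ≤ 2 * p := by
  classical
  obtain ⟨x, hx⟩ := exists_prime_orderOf_dvd_card' p h1
  obtain ⟨S, -⟩ := H35.exists_setup hx h2
  obtain ⟨B, hB⟩ := S.exists_principal
  have hb : H86.fs (principalBlock M N) = B.X ∪ B.Y := by
    ext χ
    rw [H86.mem_fs, B.principalBlock_eq hM]
    simp
  have hXb : ∀ χ ∈ B.X, χ ∈ principalBlock M N := fun χ h => by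
    rw [← H86.mem_fs, hb]; exact Finset.mem_union_left _ h
  have hYb : ∀ χ ∈ B.Y, χ ∈ principalBlock M N := fun χ h => by
    rw [← H86.mem_fs, hb]; exact Finset.mem_union_right _ h
  have hδ : ∀ χ ∈ B.X, B.δ χ * B.δ χ = 1 := fun χ h => by
    rcases B.δ_sign χ h with h | h <;> simp [h]
  have hε : B.ε * B.ε = 1 := by rcases B.ε_sign with h | h <;> simp [h]
  set s : N → ℂ := B.ε • ∑ θ ∈ B.Y, (θ : N → ℂ) with hs
  set P : IrrCharacter N → N → ℂ := fun χ => B.δ χ • (χ : N → ℂ) + s with hP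
  set D : ℤ := ∑ ψ ∈ B.X, B.δ ψ * (charDegree (ψ : N → ℂ) : ℤ) with hD
  have hDY : ∀ θ ∈ B.Y, D * B.ε = charDegree (θ : N → ℂ) := fun θ hθ => by
    rw [hD, ← B.degree_eq hθ, mul_right_comm, hε, one_mul]
  have hD0 : D ≠ 0 := by
    obtain ⟨θ, hθ⟩ := B.nonempty_Y
    intro h0
    have := hDY θ hθ
    rw [h0, zero_mul] at this
    exact (H35.degree_pos θ).ne' (by exact_mod_cast this.symm)
  have hρ : blockPart (principalBlock M N) (regFun N) =
      ∑ χ ∈ B.X, (B.δ χ * (charDegree (χ : N → ℂ) : ℤ)) • P χ := by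
    rw [blockPart_regFun, hb, Finset.sum_union B.disj]
    simp only [hP, smul_add, Finset.sum_add_distrib]
    congr 1
    · refine Finset.sum_congr rfl fun χ hχ => ?_
      rw [smul_smul, mul_right_comm, hδ χ hχ, one_mul, natCast_zsmul, Nat.cast_smul_eq_nsmul]
    · rw [← Finset.sum_smul, ← hD, hs, smul_smul, Finset.smul_sum]
      refine Finset.sum_congr rfl fun θ hθ => ?_
      rw [hDY θ hθ, natCast_zsmul, Nat.cast_smul_eq_nsmul]
  have hsing : ∀ χ ∈ B.X, ∀ g, p ∣ orderOf g → (B.δ χ : ℂ) * (χ : N → ℂ) g = 1 := by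
    intro χ hχ g hg
    obtain ⟨h, i, v, hi, hv⟩ := S.exists_conj_xp_mul hg
    rw [← H86.irr_cf χ.2 g h, hv, B.valX hχ hi v]
    exact_mod_cast hδ χ hχ
  have hs0 : ∀ g, p ∣ orderOf g → 1 + s g = 0 := by
    intro g hg
    have h3 : blockPart (principalBlock M N) (regFun N) g = 0 := by
      rw [← reg_regFun hp.out, H86.blockPart_reg hM (isPBlock_principal M N),
        H86.reg_of_singular _ hg]
    rw [hρ, Finset.sum_apply] at h3
    have h4 : ∑ χ ∈ B.X, ((B.δ χ * (charDegree (χ : N → ℂ) : ℤ)) • P χ) g = D * (1 + s g) := by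
      rw [hD, Int.cast_sum, Finset.sum_mul]
      refine Finset.sum_congr rfl fun χ hχ => ?_
      simp only [hP]
      rw [Pi.smul_apply, Pi.add_apply, Pi.smul_apply, zsmul_eq_mul, zsmul_eq_mul,
        hsing χ hχ g hg]
    rw [h4, mul_eq_zero] at h3
    exact h3.resolve_left (by exact_mod_cast hD0)
  have hsv : IsGeneralizedCharacter N s :=
    H53.virt_zsmul _ (H53.virt_sum _ _ fun θ _ => H53.virt_of_irr θ.2)
  have hPv : ∀ χ, IsGeneralizedCharacter N (P χ) := fun χ =>
    H53.virt_add (H53.virt_zsmul _ (H53.virt_of_irr χ.2)) hsv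
  have hPr : ∀ χ ∈ B.X, pRegularPart p (P χ) = P χ := fun χ hχ => by
    refine H86.reg_eq_self fun g hg => ?_
    simp only [hP]
    rw [Pi.add_apply, Pi.smul_apply, zsmul_eq_mul, hsing χ hχ g hg, hs0 g hg]
  have hzs : ∀ (n : ℤ) (f : N → ℂ), blockPart (principalBlock M N) (n • f) =
      n • blockPart (principalBlock M N) f := fun n f => by
    rw [← Int.cast_smul_eq_zsmul ℂ, H86.blockPart_smul, Int.cast_smul_eq_zsmul]
  have hPb : ∀ χ ∈ B.X, blockPart (principalBlock M N) (P χ) = P χ := fun χ hχ => by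
    simp only [hP, hs]
    rw [H86.blockPart_add, hzs, hzs, H86.blockPart_irr_of_mem (hXb χ hχ), H86.blockPart_sum]
    congr 2
    exact Finset.sum_congr rfl fun θ hθ => H86.blockPart_irr_of_mem (hYb θ hθ)
  have hss : H53.ip s s = B.Y.card := by
    rw [hs, H53.ip_zsmul_left, H53.ip_zsmul_right, ← mul_assoc, ← Int.cast_mul, hε, Int.cast_one,
      one_mul, H53.ip_sum_left, Finset.card_eq_sum_ones, Nat.cast_sum]
    refine Finset.sum_congr rfl fun θ hθ => ?_
    rw [H53.ip_sum_right, Finset.sum_eq_single θ, H53.irr_ip_self θ.2, Nat.cast_one]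
    · intro ψ _ hne
      exact H53.irr_ip_ne θ.2 ψ.2 fun h => hne (Subtype.ext h).symm
    · intro h; exact absurd hθ h
  have hχs : ∀ χ ∈ B.X, H53.ip (χ : N → ℂ) s = 0 := fun χ hχ => by
    rw [hs, H53.ip_zsmul_right, H53.ip_sum_right, Finset.sum_eq_zero, mul_zero]
    intro θ hθ
    refine H53.irr_ip_ne χ.2 θ.2 fun h => ?_
    exact Finset.disjoint_left.mp B.disj hχ ((Subtype.ext h : χ = θ) ▸ hθ)
  have hδδ : ∀ χ ∈ B.X, H53.ip (B.δ χ • (χ : N → ℂ)) (B.δ χ • (χ : N → ℂ)) = 1 := fun χ hχ => by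
    rw [H53.ip_zsmul_left, H53.ip_zsmul_right, ← mul_assoc, ← Int.cast_mul, hδ χ hχ,
      H53.irr_ip_self χ.2]
    simp
  have hPP : ∀ χ ∈ B.X, H53.ip (P χ) (P χ) = 1 + B.Y.card := fun χ hχ => by
    simp only [hP]
    rw [H53.ip_add_left, H53.ip_add_right, H53.ip_add_right, hδδ χ hχ, hss,
      H53.ip_comm s (B.δ χ • (χ : N → ℂ)), H53.ip_zsmul_left, hχs χ hχ]
    ring
  have hPQ : ∀ χ ∈ B.X, ∀ ψ ∈ B.X, χ ≠ ψ → H53.ip (P χ - P ψ) (P χ - P ψ) = 2 := by
    intro χ hχ ψ hψ hne
    have : P χ - P ψ = B.δ χ • (χ : N → ℂ) - B.δ ψ • (ψ : N → ℂ) := by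
      simp only [hP]; abel
    rw [this, H53.ip_sub_left, H53.ip_sub_right, H53.ip_sub_right, hδδ χ hχ, hδδ ψ hψ,
      H53.ip_comm (B.δ ψ • (ψ : N → ℂ)), H53.ip_zsmul_left, H53.ip_zsmul_right,
      H53.irr_ip_ne χ.2 ψ.2 fun h => hne (Subtype.ext h)]
    ring
  obtain ⟨e, he⟩ : ∃ e, B.X.card = e + 1 :=
    Nat.exists_eq_succ_of_ne_zero (Finset.card_ne_zero.mpr ⟨_, hB⟩)
  obtain ⟨c, hc, hcinj, hcsurj⟩ : ∃ c : ℕ → IrrCharacter N, (∀ i, i ≤ e → c i ∈ B.X) ∧
      (∀ i j, i ≤ e → j ≤ e → c i = c j → i = j) ∧ ∀ χ ∈ B.X, ∃ i, i ≤ e ∧ c i = χ := by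
    let φ : B.X ≃ Fin (e + 1) := Finset.equivFinOfCardEq he
    refine ⟨fun i => if h : i ≤ e then (φ.symm ⟨i, by omega⟩ : B.X) else H35.triv N, ?_, ?_, ?_⟩
    · intro i hi
      simp only [dif_pos hi]
      exact (φ.symm _).2
    · intro i j hi hj h
      simp only [dif_pos hi, dif_pos hj] at h
      have := φ.symm.injective (Subtype.ext h)
      simpa using this
    · intro χ hχ
      refine ⟨φ ⟨χ, hχ⟩, by have := (φ ⟨χ, hχ⟩).2; omega, ?_⟩
      have : (φ ⟨χ, hχ⟩ : ℕ) ≤ e := by have := (φ ⟨χ, hχ⟩).2; omega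
      simp only [dif_pos this, Fin.eta, Equiv.symm_apply_apply]
  set Φ : ℕ → N → ℂ := fun j => if 1 ≤ j ∧ j ≤ e + 1 then P (c (j - 1)) else 0 with hΦ
  have hΦ0 : Φ 0 = 0 := by simp [hΦ]
  have hΦe : Φ (e + 1 + 1) = 0 := by simp [hΦ]
  have hΦs : ∀ i, i ≤ e → Φ (i + 1) = P (c i) := fun i hi => by
    simp only [hΦ]
    rw [if_pos (by omega), Nat.add_sub_cancel]
  have hΦall : ∀ (Q : (N → ℂ) → Prop), Q 0 → (∀ χ ∈ B.X, Q (P χ)) → ∀ j, Q (Φ j) := by
    intro Q h0 hQ j
    simp only [hΦ]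
    split_ifs with h
    · exact hQ _ (hc _ (by omega))
    · exact h0
  refine ⟨e + 1 + 1, fun j => Φ j - Φ (j + 1), ⟨fun j => ?_, fun j => ?_, fun j => ?_,
    fun f hf => ?_⟩, ?_⟩
  · have := hΦall _ H53.virt_zero fun χ _ => hPv χ
    exact H53.virt_sub (this _) (this _)
  · have := hΦall (fun f => pRegularPart p f = f) H86.reg_zero hPr
    rw [H86.reg_sub, this, this]
  · have := hΦall (fun f => blockPart (principalBlock M N) f = f) (H86.blockPart_zero _) hPb
    rw [H86.blockPart_sub, this, this]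
  · rw [hρ, H53.ci_sum_right] at hf
    obtain ⟨χ, hχ, hne⟩ := Finset.exists_ne_zero_of_sum_ne_zero hf
    rw [H53.ci_zsmul_right] at hne
    obtain ⟨i, hi, rfl⟩ := hcsurj χ hχ
    obtain ⟨t, ht, h2, h3⟩ := two_le_card_jumps (fun j => classInner f (Φ j)) (e + 1)
      (by simp only [hΦ0, H53.ci_zero_right]) (by simp only [hΦe, H53.ci_zero_right])
      (j := i + 1) (by omega) (by simp only [hΦs i hi]; exact right_ne_zero_of_mul hne)
    exact ⟨t, ht, h2, fun j hj => by rw [H53.ci_sub_right]; exact h3 j hj⟩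
  · have h3 : ∀ f : N → ℂ, (classInner f f).re = H53.ip f f := fun f => by
      rw [H53.ci_self, Complex.ofReal_re]
    simp only [h3]
    rw [Finset.sum_range_succ, Finset.sum_range_succ', hΦe, hΦ0, sub_zero, zero_sub,
      H53.ip_neg_left, H53.ip_neg_right, neg_neg, zero_add, hΦs e le_rfl, hPP _ (hc e le_rfl)]
    have h4 := hΦs 0 (Nat.zero_le _)
    rw [zero_add] at h4
    rw [h4, hPP _ (hc 0 (Nat.zero_le _))]
    have h5 : ∑ k ∈ Finset.range e, H53.ip (Φ (k + 1) - Φ (k + 1 + 1)) (Φ (k + 1) - Φ (k + 1 + 1))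
        = 2 * e := by
      rw [Finset.sum_congr rfl (g := fun _ => (2 : ℝ))]
      · simp [mul_comm]
      · intro k hk
        rw [Finset.mem_range] at hk
        rw [hΦs k (by omega), hΦs (k + 1) (by omega)]
        refine hPQ _ (hc _ (by omega)) _ (hc _ (by omega)) fun h => ?_
        have := hcinj _ _ (by omega) (by omega) h
        omega
    rw [h5]
    have h6 : B.Y.card * (e + 1) = p - 1 := by rw [← he, B.cardX']; exact B.cardY'
    have h7 : 1 ≤ B.Y.card := Finset.card_pos.mpr B.nonempty_Y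
    have h8 : e + 1 + B.Y.card ≤ p := by
      have := hp.out.pos
      have : e ≤ B.Y.card * e := Nat.le_mul_of_pos_left _ h7
      rw [mul_add, mul_one] at h6
      omega
    have h9 : (e : ℝ) + 1 + B.Y.card ≤ p := by exact_mod_cast h8
    linarith

section Lift

variable {C : Type*} [Group C] [Fintype C] (K : Subgroup C) [hK : K.Normal] [Fintype K]

omit hMm hK [Fintype K] in
theorem reg_indFun {Ψ : K → ℂ} (h : pRegularPart p Ψ = Ψ) :
    pRegularPart p (indFun K Ψ) = indFun K Ψ := by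
  refine H86.reg_eq_self fun g hg => indFun_eq_zero_of_forall K Ψ fun k hk => ?_
  rw [← h]
  refine H86.reg_of_singular _ ?_
  obtain ⟨c, hc⟩ := isConj_iff.mp hk
  rw [← Subgroup.orderOf_coe, ← hc, ← MulAut.conj_apply, MulEquiv.orderOf_eq]
  exact hg

theorem ci_indFun_eq_zero (hM : IsPModular p M) (hreg : ∀ g : C, ¬ p ∣ orderOf g → g ∈ K)
    {θ : IrrCharacter K} {ψ : IrrCharacter C}
    (h : ¬ (ψ ∈ principalBlock M C ↔ θ ∈ principalBlock M K)) :
    classInner (indFun K (θ : K → ℂ)) (ψ : C → ℂ) = 0 := by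
  rw [classInner_indFun_left K _ (H86.irr_cf ψ.2)]
  by_contra hne
  refine h (H33.principal_iff_of_regular_le hM K hreg fun h0 => hne ?_)
  exact H53.ci_eq_zero_comm h0

theorem blockPart_indFun (hM : IsPModular p M) (hreg : ∀ g : C, ¬ p ∣ orderOf g → g ∈ K)
    {Ψ : K → ℂ} (hΨ : IsClassFunction K Ψ) :
    blockPart (principalBlock M C) (indFun K Ψ) =
      indFun K (blockPart (principalBlock M K) Ψ) := by
  classical
  have h1 : ∀ θ : IrrCharacter K, blockPart (principalBlock M C) (indFun K (θ : K → ℂ)) =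
      indFun K (blockPart (principalBlock M K) (θ : K → ℂ)) := by
    intro θ
    by_cases hθ : θ ∈ principalBlock M K
    · rw [H86.blockPart_irr_of_mem hθ]
      refine H86.blockPart_eq_self (indFun_isClassFunction K _) fun ψ hψ => ?_
      exact ci_indFun_eq_zero K hM hreg fun h => hψ (h.mpr hθ)
    · rw [H86.blockPart_irr_of_notMem hθ, H86.blockPart_eq, Finset.sum_eq_zero]
      · exact ((indLin K).map_zero).symm
      · intro ψ hψ
        rw [H86.mem_fs] at hψ
        rw [ci_indFun_eq_zero K hM hreg fun h => hθ (h.mp hψ), zero_smul]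
  have h2 : blockPart Set.univ Ψ = Ψ :=
    H86.blockPart_eq_self hΨ fun χ hχ => absurd (Set.mem_univ χ) hχ
  rw [← h2, H86.blockPart_eq Set.univ, indFun_sum, H86.blockPart_sum, H86.blockPart_sum,
    indFun_sum]
  refine Finset.sum_congr rfl fun θ _ => ?_
  rw [indFun_smul, H86.blockPart_smul, H86.blockPart_smul, indFun_smul, h1]

omit hMm in
theorem ci_indFun_self {Ψ : K → ℂ}
    (hinv : ∀ (x : C) (n : K), Ψ ⟨x * n * x⁻¹, hK.conj_mem n n.2 x⟩ = Ψ n) :
    classInner (indFun K Ψ) (indFun K Ψ) = K.index * classInner Ψ Ψ := by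
  rw [classInner_indFun_left K _ (indFun_isClassFunction K _)]
  have : (fun h : K => indFun K Ψ h) = (K.index : ℂ) • Ψ := by
    ext n
    rw [indFun_normal_coe K hK]
    simp only [hinv, Finset.sum_const, Finset.card_univ, nsmul_eq_mul, Pi.smul_apply, smul_eq_mul]
    rw [← Nat.card_eq_fintype_card, ← K.card_mul_index, Nat.cast_mul]
    have := card_ne_zero_complex K
    field_simp
  rw [this, H53.ci_smul_right, map_natCast]

end Lift

theorem apply_ne_zero_of_not_dvd {G : Type*} [Group G] [Finite G] (hM : IsPModular p M)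
    {χ : IrrCharacter G} (hχ : ¬ p ∣ charDegree (χ : G → ℂ)) {x : G}
    (hx : ∃ k, orderOf x = p ^ k) : (χ : G → ℂ) x ≠ 0 := by
  intro h0
  have h1 := H33.char_mul_sub_mem hM (H5.isCharacter_of_isIrr χ.2) (Commute.one_right x) hx
  rw [mul_one, h0, zero_sub, neg_mem_iff, H35.cast_degree_irr] at h1
  have h2 := H33.natCast_div_notMem_locMax hM (H33.charDegree_ne_zero χ) one_ne_zero
    (by rw [Nat.factorization_eq_zero_of_not_dvd hχ]; exact Nat.zero_le _)
  rw [Nat.cast_one, div_one] at h2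
  exact h2 h1

theorem mul_card_le_of_pfam {G : Type*} [Group G] [Fintype G] (hM : IsPModular p M) {x : G}
    (hx : ∃ k, orderOf x = p ^ k) [Fintype (Subgroup.centralizer ({x} : Set G))]
    (K : Subgroup (Subgroup.centralizer ({x} : Set G))) [hK : K.Normal] [Fintype K]
    (hreg : ∀ g, ¬ p ∣ orderOf g → g ∈ K) {m k : ℕ} {Ψ : ℕ → K → ℂ} (hΨ : PFam M p K m k Ψ)
    (hinv : ∀ j (x : Subgroup.centralizer ({x} : Set G)) (n : K),
      Ψ j ⟨x * n * x⁻¹, hK.conj_mem n n.2 x⟩ = Ψ j n) :
    (m * Nat.card {χ : IrrCharacter G // χ ∈ principalBlock M G ∧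
      ¬ p ∣ charDegree (χ : G → ℂ)} : ℝ) ≤
      K.index * ∑ j ∈ Finset.range k, (classInner (Ψ j) (Ψ j)).re := by
  classical
  have hp : p.Prime := hM.1
  have hC := H86.isCent_centralizer x
  have hind := (H33.isInducedBlock_principal_iff hM hx (isPBlock_principal M _)).mpr rfl
  rw [← H86.card_filter_fs]
  refine (H86.mul_card_le_sum hM hC hx hind (Finset.range k) (fun j => indFun K (Ψ j))
    (fun j _ => isGeneralizedCharacter_indFun K (hΨ.virt j)) (fun j _ => reg_indFun K (hΨ.reg j))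
    (fun j _ => ?_) (Finset.filter_subset _ _) (fun χ hχ => ?_)).trans (le_of_eq ?_)
  · rw [blockPart_indFun K hM hreg (H53.virt_classFun (hΨ.virt j)), hΨ.part]
  · rw [Finset.mem_filter, H86.mem_fs] at hχ
    have hcf := H86.isClassFunction_shift hC (H86.irr_cf χ.2)
    obtain ⟨t, ht, h1, h2⟩ := hΨ.det
      (fun n : K => H86.shift (Subgroup.centralizer ({x} : Set G)) x (χ : G → ℂ) n) (by
      rw [← classInner_indFun_right K _ hcf,
        ← blockPart_indFun K hM hreg regFun_isClassFunction, ← H86.classInner_blockPart,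
        ← reg_indFun K (reg_regFun hp), ← H86.classInner_reg]
      have h3 : pRegularPart p (blockPart (principalBlock M _) (H86.shift _ x (χ : G → ℂ))) =
          pRegularPart p (H86.shift (Subgroup.centralizer ({x} : Set G)) x (χ : G → ℂ)) := by
        refine H86.reg_congr fun y hy => ?_
        rw [H86.blockPart_shift hC (H86.irr_cf χ.2),
          H33.blockPart_principal_restrict_of_mem hM hχ.1 _ (hC.isPPart hx hy)]
        rfl
      rw [h3, H86.classInner_reg, reg_indFun K (reg_regFun hp), classInner_indFun_right K _ hcf,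
        ci_regFun_right, H86.shift_apply]
      simpa using apply_ne_zero_of_not_dvd hM hχ.2 hx)
    exact ⟨t, ht, h1, fun j hj => by rw [classInner_indFun_right K _ hcf]; exact h2 j hj⟩
  · rw [Finset.mul_sum]
    refine Finset.sum_congr rfl fun j _ => ?_
    rw [ci_indFun_self K (hinv j)]
    simp

omit hMm in
open scoped IsMulCommutative in
theorem exists_normal_notMem {C : Type*} [Group C] [Finite C] [hp : Fact p.Prime]
    (h2 : (Nat.card C).factorization p ≤ 2) {u : C} (hu : u ∈ Subgroup.center C) (hu1 : u ≠ 1)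
    (hup : ∃ k, orderOf u = p ^ k) :
    ∃ K : Subgroup C, K.Normal ∧ (∃ j, K.index = p ^ j) ∧ u ∉ K := by
  obtain ⟨Q⟩ : Nonempty (Sylow p C) := inferInstance
  have hQ := Q.card_eq_multiplicity
  have hcomm : IsMulCommutative (Q : Subgroup C) := by
    interval_cases h : (Nat.card C).factorization p
    · have : Subsingleton (Q : Subgroup C) := (Nat.card_eq_one_iff_unique.mp (by simpa using hQ)).1
      exact ⟨⟨fun a b => Subsingleton.elim _ _⟩⟩
    · have : IsCyclic (Q : Subgroup C) := isCyclic_of_prime_card (by simpa using hQ)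
      infer_instance
    · exact IsPGroup.isMulCommutative_of_card_eq_prime_sq hQ
  let v : C →* (Q : Subgroup C) := MonoidHom.transfer (MonoidHom.id (Q : Subgroup C))
  refine ⟨v.ker, inferInstance, ?_, fun hK => hu1 ?_⟩
  · rw [Subgroup.index_ker]
    have : Nat.card v.range ∣ p ^ (Nat.card C).factorization p :=
      hQ ▸ Subgroup.card_subgroup_dvd_card _
    obtain ⟨j, -, hj⟩ := (Nat.dvd_prime_pow hp.out).mp this
    exact ⟨j, hj⟩
  · rw [MonoidHom.mem_ker] at hK
    have h3 := MonoidHom.transfer_eq_pow (MonoidHom.id (Q : Subgroup C)) u fun k g _ => by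
      have := Subgroup.mem_center_iff.mp ((Subgroup.center C).pow_mem hu k) g
      rw [mul_assoc, ← this, inv_mul_cancel_left]
    have h4 : u ^ (Q : Subgroup C).index = 1 := by
      have := congrArg Subtype.val (h3.symm.trans hK)
      simpa using this
    obtain ⟨k, hk⟩ := hup
    have h5 : (orderOf u).Coprime (Q : Subgroup C).index := by
      rw [hk]
      exact Nat.Coprime.pow_left _ (hp.out.coprime_iff_not_dvd.mpr Q.not_dvd_index)
    exact orderOf_eq_one_iff.mp (h5.eq_one_of_dvd (orderOf_dvd_of_pow_eq_one h4))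

theorem card_le_sq_of_ne_one {G : Type*} [Group G] [Finite G] [hp : Fact p.Prime]
    (hM : IsPModular p M) {x : G} (hx : ∃ k, orderOf x = p ^ k) (hx1 : x ≠ 1)
    (h2 : (Nat.card (Subgroup.centralizer ({x} : Set G))).factorization p ≤ 2) :
    Nat.card {χ : IrrCharacter G // χ ∈ principalBlock M G ∧
      ¬ p ∣ charDegree (χ : G → ℂ)} ≤ p ^ 2 := by
  classical
  have := Fintype.ofFinite G
  have := Fintype.ofFinite (Subgroup.centralizer ({x} : Set G))
  have hC := H86.isCent_centralizer x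
  obtain ⟨K, hK, ⟨j, hj⟩, hxK⟩ := exists_normal_notMem h2 hC.elt_mem_center
    (fun h => hx1 (congrArg Subtype.val h)) (by
      rw [← Subgroup.orderOf_coe]; exact hx)
  have := Fintype.ofFinite K
  have hreg : ∀ g, ¬ p ∣ orderOf g → g ∈ K := fun g hg =>
    H33.mem_of_regular_of_index_pow hp.out K hj hg
  have hfac := H33.factorization_index_add_card (p := p) K
  rw [hj, hp.out.factorization_pow, Finsupp.single_eq_same] at hfac
  have hj0 : j ≠ 0 := by
    rintro rfl
    rw [pow_zero, Subgroup.index_eq_one] at hj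
    exact hxK (hj ▸ Subgroup.mem_top _)
  by_cases hd : p ∣ Nat.card K
  · have h3 := hp.out.factorization_pos_of_dvd Nat.card_pos.ne' hd
    have h4 : ¬ p ^ 2 ∣ Nat.card K := by
      rw [hp.out.pow_dvd_iff_le_factorization Nat.card_pos.ne']
      omega
    obtain rfl : j = 1 := by omega
    rw [pow_one] at hj
    obtain ⟨k, Ψ, hΨ, hs⟩ := pfam_of_prime hM hd h4
    have h5 := mul_card_le_of_pfam hM hx K hreg hΨ fun j c n => by
      have hq : Nat.card (_ ⧸ K) = p := hj
      have hne : (QuotientGroup.mk hC.elt : _ ⧸ K) ≠ 1 := by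
        rwa [Ne, QuotientGroup.eq_one_iff]
      have hz := mem_zpowers_of_prime_card hq hne (g' := QuotientGroup.mk c)
      obtain ⟨i, hi⟩ := Subgroup.mem_zpowers_iff.mp hz
      rw [← QuotientGroup.mk_zpow, QuotientGroup.eq] at hi
      have h6 := H53.virt_classFun (hΨ.virt j) n ⟨_, hi⟩
      rw [← h6]
      congr 1
      apply Subtype.ext
      have h7 := Subgroup.mem_center_iff.mp ((Subgroup.center _).zpow_mem hC.elt_mem_center i)
      simp only [Subgroup.coe_mul, Subgroup.coe_inv, mul_inv_rev, inv_inv]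
      rw [← mul_assoc, h7]
      group
    rw [hj] at h5
    have h6 : (0 : ℝ) ≤ p := Nat.cast_nonneg _
    have h7 := h5.trans (mul_le_mul_of_nonneg_left hs h6)
    have h8 : ((Nat.card {χ : IrrCharacter G // χ ∈ principalBlock M G ∧
      ¬ p ∣ charDegree (χ : G → ℂ)} : ℕ) : ℝ) ≤ (p ^ 2 : ℕ) := by
      push_cast at h7 ⊢
      linarith
    exact_mod_cast h8
  · have h5 := mul_card_le_of_pfam hM hx K hreg (pfam_of_not_dvd hM hd) fun _ _ _ => rfl
    rw [Finset.sum_range_one, H53.ci_self, H53.ip_one_one, hj] at h5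
    simp only [Nat.cast_one, one_mul, Complex.ofReal_one, Complex.one_re, mul_one,
      Nat.cast_le] at h5
    exact h5.trans (Nat.pow_le_pow_right hp.out.pos (by omega))

end Cfsg.Agent.H6
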