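import Cfsg.Agent.H44.FourNorm
import Cfsg.Agent.H4.SCN
import Cfsg.Agent.H49.Quot
import Cfsg.Agent.H35.Simple
import Cfsg.Agent.H1.Frattini
import Cfsg.Agent.H48.SCN
import Cfsg.Agent.H2.AbelianCoprime

/-! A `2`-group acting faithfully on an abelian group `W` of odd order has order `≤ |W|²/2`. -/

set_option autoImplicit false

namespace Cfsg.Agent.H6
open Subgroup Cfsg.Agent.H49
open scoped commutatorElement

universe u

theorem mem_zp2 {G : Type*} [Group G] {z x : G} (hz : orderOf z = 2) :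
    x ∈ zpowers z ↔ x = 1 ∨ x = z := by
  classical
  have : IsOfFinOrder z := orderOf_pos_iff.1 (by omega)
  rw [this.mem_zpowers_iff_mem_range_orderOf, hz]
  simp [Finset.range_add_one, eq_comm, or_comm]

theorem exists_inv_of_two {G : Type*} [Group G] [Finite G] {Q : Subgroup G} (hQ : IsPGroup 2 Q)
    (h : Q ≠ ⊥) : ∃ x ∈ Q, orderOf x = 2 :=
  exists_orderOf_eq_of_dvd_card Nat.prime_two
    (hQ.card_eq_or_dvd.resolve_left (mt card_eq_one.1 h))

theorem two_dich {Q : Type*} [Group Q] [Finite Q] (hQ : IsPGroup 2 Q) {z : Q}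
    (hz : orderOf z = 2) (hc : z ∈ center Q) :
    (∃ a : Q, a ^ 2 = 1 ∧ a ∉ zpowers z ∧ ∀ s, ⁅a, s⁆ ∈ zpowers z) ∨ ∃ A : Subgroup Q,
      (∀ x ∈ A, x ^ 2 = 1 → x ∈ zpowers z) ∧ 2 * A.index ≤ Nat.card A ∧
      (frattini Q).index ≤ 2 * A.index := by
  refine or_iff_not_imp_left.2 fun h => ?_
  obtain ⟨A, _, _, -, hA⟩ := H4.exists_maximal_abelian (⊥ : Subgroup Q)
  have hC := H4.centralizer_le_of_maximal_abelian hQ A hA
  have h1 : ∀ x ∈ A, x ^ 2 = 1 → x ∈ zpowers z := fun x hx h2 => by_contra fun h3 => by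
    obtain ⟨y, hy, h4, h5⟩ := H44.exists_not_mem_commutator_mem (S := ⊤) (U := zpowers z)
      (hQ.to_subgroup _) (omegaOne 2 A) (hQ.to_subgroup _) (le_normalizer_of_normal.trans
        (H21.normalizer_le_normalizer_omegaOne 2 A)) fun e => h3 (e (H21.mem_omegaOne hx h2))
    exact h ⟨y, (H21.mem_omegaOne_of_comm.1 hy).2, h4, fun s => h5 s trivial⟩
  have hzA : z ∈ A := hC (center_le_centralizer _ hc)
  have : IsCyclic A := H46.isCyclic_of_comm_of_unique (hQ.to_subgroup A) fun x y hx hy => by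
    have h2 : (x : Q) = z := ((mem_zp2 hz).1 (h1 x x.2 (by
      rw [← coe_pow, ← hx, pow_orderOf_eq_one, coe_one]))).resolve_left fun e => by
        rw [← orderOf_coe, e, orderOf_one] at hx; omega
    rcases (mem_zp2 hz).1 (h1 y y.2 (by rw [← coe_pow, hy, coe_one])) with e | e
    · exact (mem_zp2 hx).2 (.inl (Subtype.ext e))
    · exact (mem_zp2 hx).2 (.inr (Subtype.ext (e.trans h2.symm)))
  refine ⟨A, h1, ?_, ?_⟩
  · have h2 := H35.relIndex_dvd_card_mulAut A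
    rw [normalizer_eq_top, relIndex_top_right, le_antisymm hC (le_centralizer A),
      IsCyclic.card_mulAut] at h2
    obtain ⟨k, hk⟩ := (hQ.to_subgroup A).exists_card_eq
    have h3 := A.orderOf_dvd_natCard hzA
    rw [hk] at h2 h3 ⊢
    rcases k with _ | k
    · rw [hz] at h3; omega
    rw [Nat.totient_prime_pow_succ Nat.prime_two] at h2
    have := Nat.le_of_dvd (by positivity) h2
    omega
  · obtain ⟨g, hg⟩ := (A.isCyclic_iff_exists_zpowers_eq_top).1 this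
    have h2 : zpowers (g ^ 2) ≤ frattini Q := zpowers_le.2 (H1.pow_mem_frattini hQ g)
    refine (index_antitone h2).trans ?_
    have h3 : zpowers (g ^ 2) ≤ A := hg ▸ zpowers_le.2 (npow_mem_zpowers g 2)
    rw [← relIndex_mul_index h3]
    refine Nat.mul_le_mul_right _ (Nat.le_of_mul_le_mul_left (c := Nat.card (zpowers (g ^ 2)))
      ?_ Nat.card_pos)
    rw [card_mul_relIndex h3, ← hg, Nat.card_zpowers, Nat.card_zpowers, orderOf_pow]
    have h4 := Nat.div_mul_cancel (Nat.gcd_dvd_left (orderOf g) 2)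
    exact h4.ge.trans (Nat.mul_le_mul_left _
      (Nat.le_of_dvd two_pos (Nat.gcd_dvd_right (orderOf g) 2)))

variable {G : Type u} [Group G] [Finite G] {Q W : Subgroup G}

omit [Finite G] in
theorem inverts_of_cent_bot [IsMulCommutative W] {a : G} (h2 : a ^ 2 = 1) (ha : a ∈ 𝒩(W))
    (h : W ⊓ 𝒞[a] = ⊥) {w : G} (hw : w ∈ W) : a * w * a⁻¹ = w⁻¹ := by
  have h1 := conj_mem_of_norm le_rfl ha hw
  have h3 : a⁻¹ = a := inv_eq_of_mul_eq_one_right (by rw [← sq, h2])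
  have h4 : w * (a * w * a⁻¹) ∈ W ⊓ 𝒞[a] := ⟨mul_mem hw h1, mem_cent1.2 (by
    nth_rw 2 [setLike_mul_comm hw h1]
    rw [h3]
    simp only [mul_assoc]
    rw [← mul_assoc a a, ← sq, h2, one_mul, mul_one])⟩
  rw [h, mem_bot] at h4
  exact eq_inv_of_mul_eq_one_right h4

/-- the dichotomy for a faithful action on an abelian group on which the central involution
acts without fixed points -/
theorem two_dich' [IsMulCommutative W] (hQ : IsPGroup 2 Q) (hn : Q ≤ 𝒩(W)) (hf : Q ⊓ 𝒞(W) = ⊥)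
    (hW : W ≠ ⊥) {z : Q} (hz : orderOf z = 2) (hc : z ∈ center Q) (h : W ⊓ 𝒞[(z : G)] = ⊥) :
    (∃ a : Q, a ^ 2 = 1 ∧ a ≠ 1 ∧ W ⊓ 𝒞[(a : G)] ≠ ⊥ ∧ ∀ s, ⁅a, s⁆ ∈ zpowers z) ∨
      2 * Nat.card Q < Nat.card W ^ 2 ∧ (frattini Q).index < Nat.card W := by
  have hz2 : (z : G) ^ 2 = 1 := by rw [← coe_pow, ← hz, pow_orderOf_eq_one, coe_one]
  refine (two_dich hQ hz hc).imp (fun ⟨a, h1, h2, h3⟩ => ⟨a, h1, fun e => h2 (e ▸ one_mem _),
    fun e => h2 ((mem_zp2 hz).2 (.inr (Subtype.ext ?_))), h3⟩) fun ⟨A, h1, h2, h3⟩ => ?_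
  · have h4 : (z : G)⁻¹ * a ∈ Q ⊓ 𝒞(W) := mem_inf.2 ⟨mul_mem (inv_mem z.2) a.2, fun w hw => by
      have h5 := inverts_of_cent_bot (congrArg Subtype.val h1) (hn a.2) e hw
      rw [← inverts_of_cent_bot hz2 (hn z.2) h hw] at h5
      calc w * ((z : G)⁻¹ * a) = (z : G)⁻¹ * ((z : G) * w * (z : G)⁻¹) * a := by group
        _ = _ := by rw [← h5]; group⟩
    rw [hf, mem_bot] at h4
    exact (inv_mul_eq_one.1 h4).symm
  · obtain ⟨⟨w, hw⟩, h4⟩ := W.ne_bot_iff_exists_ne_one.1 hW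
    replace h4 : w ≠ 1 := fun e => h4 (Subtype.ext e)
    have h5 := H48.relIndex_cent1_lt ((map_subtype_le A).trans hn) hw h4
    have h6 : 𝒞[w] ⊓ A.map Q.subtype = ⊥ := by_contra fun e => by
      obtain ⟨x, hx, h7⟩ := exists_inv_of_two (hQ.to_le
        (inf_le_right.trans (map_subtype_le A))) e
      obtain ⟨y, hy, rfl⟩ := hx.2
      rw [subtype_apply, orderOf_coe] at h7
      rcases (mem_zp2 hz).1 (h1 y hy (by rw [← h7, pow_orderOf_eq_one])) with rfl | rfl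
      · simp at h7
      · exact h4 (mem_bot.1 (h.le ⟨hw, mem_cent1_comm.1 hx.1⟩))
    rw [← inf_relIndex_right, h6, relIndex_bot_left, card_map_of_injective Q.subtype_injective]
      at h5
    refine ⟨?_, by omega⟩
    rw [← A.index_mul_card]
    nlinarith

theorem two_mul_relIndex_le (n : ℕ) : ∀ {G : Type u} [Group G] [Finite G] {Q W : Subgroup G}
    [IsMulCommutative W], Nat.card W = n → IsPGroup 2 Q → Q ≤ 𝒩(W) → Odd (Nat.card W) → W ≠ ⊥ →
    2 * 𝒞(W).relIndex Q ≤ Nat.card W ^ 2 := by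
  induction n using Nat.strong_induction_on with
  | _ n ih =>
  intro G _ _ Q W _ hn hQ hN ho hW
  have h2 : 1 < Nat.card W := (one_lt_card_iff_ne_bot _).2 hW
  wlog hf : Q ⊓ 𝒞(W) = ⊥ generalizing G
  · have h3 : Q ≤ 𝒩(Q ⊓ 𝒞(W)) := norm_inf le_normalizer (norm_cent hN)
    have h4 : W ≤ 𝒩(Q ⊓ 𝒞(W)) := norm_of_cent (cent_symm inf_le_right)
    have h5 : W ⊓ (Q ⊓ 𝒞(W)) = ⊥ := by
      obtain ⟨k, hk⟩ := (hQ.to_inf_left (K := 𝒞(W))).exists_card_eq
      exact disjoint_iff.1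
        (disjoint_of_coprime_natCard (hk ▸ (Nat.coprime_two_right.2 ho).pow_right k))
    have h6 := card_quo_of_disjoint h4 h5
    have _ := abelian_quo ‹IsMulCommutative W› (Q ⊓ 𝒞(W))
    have h7 : quo Q (Q ⊓ 𝒞(W)) ⊓ 𝒞(quo W (Q ⊓ 𝒞(W))) = ⊥ := eq_bot_iff.2 fun x hx => by
      obtain ⟨y, hy, rfl⟩ := mem_quo.1 hx.1
      refine coset_eq_one_iff.2 ⟨hy, fun w hw => commutatorElement_eq_one_iff_mul_comm.1
        (mem_bot.1 (h5.le ⟨?_, ?_⟩))⟩
      · rw [commutatorElement_def, mul_assoc, mul_assoc, ← mul_assoc (y : G)]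
        exact mul_mem hw (conj_mem_of_norm hN hy (inv_mem hw))
      · exact coset_eq_one_iff (x := ⁅(⟨w, h4 hw⟩ : 𝒩(Q ⊓ 𝒞(W))), y⁆) |>.1 (by
          rw [map_commutatorElement]
          exact commutatorElement_eq_one_iff_mul_comm.2 (hx.2 _ (coset_mem_quo hw)))
    have h8 := this (Q := quo Q (Q ⊓ 𝒞(W))) (h6.trans hn) (hQ.comap_subtype.map _) (quo_norm _ hN) (h6 ▸ ho)
      (fun e => by rw [e, card_bot] at h6; omega) (h6 ▸ h2) h7
    rwa [← inf_relIndex_left, h7, relIndex_bot_left, card_quo h3, h6, inf_relIndex_left] at h8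
  rw [← inf_relIndex_right, inf_comm, hf, relIndex_bot_left]
  have key : ∀ a : Q, a ^ 2 = 1 → a ≠ 1 → W ⊓ 𝒞[(a : G)] ≠ ⊥ → 𝒞[a].index ≤ 2 →
      2 * Nat.card Q ≤ Nat.card W ^ 2 := fun a h3 h4 h5 h6 => by
    have h7 : zpowers (a : G) ≤ 𝒩(W) := zpowers_le.2 (hN a.2)
    have h8 := H21.card_centralizer_mul_card_commutator (hN a.2)
    have h9 := (H2.coprime_abelian_decomposition _ W h7 (by
      rw [Nat.card_zpowers, orderOf_eq_prime (p := 2) (congrArg Subtype.val h3)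
        fun e => h4 (Subtype.ext e)]
      exact Nat.coprime_two_left.2 ho)).2
    rw [cent_zpowers] at h8 h9
    have h10 : ⁅W, zpowers (a : G)⁆ ≠ ⊥ := fun e => h4 (Subtype.ext (mem_bot.1 (hf.le ⟨a.2,
      le_cent1_iff.1 (by rw [← h9, e, sup_bot_eq]; exact inf_le_right)⟩)))
    have h11 := (one_lt_card_iff_ne_bot _).2 h5
    have h12 := (one_lt_card_iff_ne_bot _).2 h10
    have h13 : ⁅W, zpowers (a : G)⁆ ≤ W := le_sup_right.trans h9.le
    have := abelian_of_le ‹IsMulCommutative W› h13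
    have := abelian_of_le ‹IsMulCommutative W› (inf_le_left (b := 𝒞[(a : G)]))
    have h14 : Q ⊓ 𝒞[(a : G)] ≤ 𝒩(zpowers (a : G)) :=
      norm_of_cent (cent_zpowers (a : G) ▸ inf_le_right)
    have h15 := ih _ (by nlinarith) (W := W ⊓ 𝒞[(a : G)]) rfl (hQ.to_inf_left (K := 𝒞[(a : G)]))
      (norm_inf (inf_le_left.trans hN) (inf_le_right.trans le_normalizer))
      (ho.of_dvd_nat (card_dvd_of_le inf_le_left)) h5
    have h16 := ih _ (by nlinarith) (W := ⁅W, zpowers (a : G)⁆) rfl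
      (hQ.to_inf_left (K := 𝒞[(a : G)])) (norm_commutator (inf_le_left.trans hN) h14)
      (ho.of_dvd_nat (card_dvd_of_le h13)) h10
    have h17 := relIndex_inf_le (H := 𝒞(W ⊓ 𝒞[(a : G)])) (K := 𝒞(⁅W, zpowers (a : G)⁆))
      (L := Q ⊓ 𝒞[(a : G)])
    rw [← cent_sup, h9, ← inf_relIndex_right, inf_comm, inf_right_comm, hf, bot_inf_eq,
      relIndex_bot_left] at h17
    have h18 : 𝒞[(a : G)].relIndex Q ≤ 2 := by 
      rwa [relIndex, show 𝒞[(a : G)].subgroupOf Q = 𝒞[a] from Subgroup.ext fun x => by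
        rw [mem_subgroupOf, mem_cent1, mem_cent1, Subtype.ext_iff]; rfl]
    have h19 := card_mul_relIndex (inf_le_left : Q ⊓ 𝒞[(a : G)] ≤ Q)
    rw [inf_relIndex_left] at h19
    rw [← h8, mul_pow, ← h19]
    nlinarith [Nat.mul_le_mul h15 h16, Nat.mul_le_mul h17 h18]
  by_cases hQ1 : Q = ⊥
  · rw [hQ1, card_bot]; nlinarith
  have := (nontrivial_iff_ne_bot Q).2 hQ1
  obtain ⟨z, hc, hz⟩ := exists_inv_of_two (hQ.to_subgroup (center Q))
    ((nontrivial_iff_ne_bot _).1 hQ.center_nontrivial)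
  by_cases h : W ⊓ 𝒞[(z : G)] = ⊥
  · rcases two_dich' hQ hN hf hW hz hc h with ⟨a, h3, h4, h5, h6⟩ | h3
    · refine key a h3 h4 h5 ?_
      rw [← relIndex_top_right, ← hz, ← Nat.card_zpowers]
      exact H4.relIndex_centralizer_le fun c _ => h6 c
    · exact h3.1.le
  · refine key z (hz ▸ pow_orderOf_eq_one z) (fun e => by simp [e] at hz) h ?_
    rw [centralizer_eq_top_iff_subset.2 (Set.singleton_subset_iff.2 hc), index_top]
    omega

end Cfsg.Agent.H6
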